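import Cfsg.Agent.Lib.H6.GL2Fus
import Cfsg.Agent.Lib.H2.GU2Syl

/-! The `2`-fusion system of `SU₃(q)`, `q` odd (helper6). -/

set_option autoImplicit false
set_option linter.style.haveILetI false
open Cfsg Subgroup
open scoped Pointwise commutatorElement Matrix MatrixGroups

namespace Cfsg.Agent.H6

open H2 FusionSystem

variable {F : Type*} [Field F] [StarRing F] {q : ℕ}

theorem mem_herm_iff (hσ : ∀ x : F, star x = x ^ q) {H : Type*} [Group H] {n : ℕ}
    (ρ : H →* Matrix (Fin n) (Fin n) F) (g : H) :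
    g ∈ preserving ρ (hermForm n F q) ↔ (ρ g)ᴴ * ρ g = 1 := by
  have e : ∀ u v : Fin n → F, hermForm n F q u v = star v ⬝ᵥ u := fun u v => by
    simp only [hermForm, dotProduct, ← hσ, Pi.star_apply, mul_comm]
  change (∀ u v, hermForm n F q (ρ g *ᵥ u) (ρ g *ᵥ v) = hermForm n F q u v) ↔ _
  simp only [e, Matrix.star_mulVec, Matrix.dotProduct_mulVec, Matrix.vecMul_vecMul]
  refine ⟨fun h => ?_, fun h u v => by rw [h, Matrix.vecMul_one]⟩
  ext i j
  have := h (Pi.single j 1) (Pi.single i 1)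
  rw [Pi.star_single, star_one, Matrix.single_one_vecMul, dotProduct_single, dotProduct_single,
    mul_one, mul_one] at this
  rw [Matrix.one_apply]
  simpa [Pi.single_apply, eq_comm] using this

theorem star_two_inv : star (2 : F)⁻¹ = 2⁻¹ := by rw [star_inv₀, star_ofNat]

theorem conjTranspose_eq_neg {ι : Type*} [Fintype ι] [DecidableEq ι] {c : Matrix ι ι F}
    (h : cᴴ * c = 1) (hc : c * c = -1) : cᴴ = -c := by
  rw [← mul_one cᴴ, ← neg_neg (1 : Matrix ι ι F), ← hc, mul_neg, ← mul_assoc, h, one_mul]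

theorem om_GU2 (hσ : ∀ x : F, star x = x ^ q) (h2 : (2 : F) ≠ 0) :
    ∃ n : GU2 F q, (n : GL (Fin 2) F) = -1 ∧ Om n := by
  refine ⟨⟨-1, (mem_herm_iff hσ _ _).2 (by simp)⟩, rfl, om_of_rep h2
    ((Units.coeHom _).comp (GU2 F q).subtype) (Units.val_injective.comp (subtype_injective _))
    (by simp) fun c u hc hu h => ⟨⟨omGL h2 hc hu h, (mem_herm_iff hσ _ _).2 ?_⟩, rfl⟩⟩
  have e1 := conjTranspose_eq_neg ((mem_herm_iff hσ _ _).1 c.2) hc
  have e2 := conjTranspose_eq_neg ((mem_herm_iff hσ _ _).1 u.2) hu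
  change (omM _ _)ᴴ * omM _ _ = 1
  refine Eq.trans ?_ (mul_eq_one_comm.1 (omM_mul h2 hc hu h))
  congr 1
  simp only [MonoidHom.comp_apply, coe_subtype] at h ⊢
  rw [omM, omM', Matrix.conjTranspose_smul, star_two_inv, Matrix.conjTranspose_add,
    Matrix.conjTranspose_add, Matrix.conjTranspose_add, Matrix.conjTranspose_mul, e1, e2,
    neg_mul_neg, h]
  simp [sub_eq_add_neg]

theorem star_det_mul {ι : Type*} [Fintype ι] [DecidableEq ι] {M : Matrix ι ι F} (h : Mᴴ * M = 1) :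
    star M.det * M.det = 1 := by
  rw [← Matrix.det_conjTranspose, ← Matrix.det_mul, h, Matrix.det_one]

theorem blk_unitary (a b c d e : F) :
    (!![a, b, 0; c, d, 0; 0, 0, e])ᴴ * !![a, b, 0; c, d, 0; 0, 0, e] = 1 ↔
      (!![a, b; c, d])ᴴ * !![a, b; c, d] = 1 ∧ star e * e = 1 := by
  simp [← Matrix.ext_iff, Fin.forall_fin_succ, Matrix.mul_apply, Fin.sum_univ_succ, and_assoc]

theorem gl2ToSL3_mem_iff (hσ : ∀ x : F, star x = x ^ q) (A : GL (Fin 2) F) :
    gl2ToSL3 A ∈ SU 3 F q ↔ A ∈ GU2 F q := by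
  rw [SU, mem_herm_iff hσ, mem_herm_iff hσ]
  change (gl2ToSL3 A).1ᴴ * (gl2ToSL3 A).1 = 1 ↔ A.1ᴴ * A.1 = 1
  rw [coe_gl2ToSL3, blk_unitary, ← Matrix.eta_fin_two A.1]
  refine and_iff_left_of_imp fun h => ?_
  rw [star_inv₀, ← mul_inv, star_det_mul h, inv_one]

/-- The embedding of `GU₂` in `SU₃`. -/
def gu2ToSU3 (hσ : ∀ x : F, star x = x ^ q) : GU2 F q →* SU 3 F q :=
  (gl2ToSL3.comp (GU2 F q).subtype).codRestrict _ fun A => (gl2ToSL3_mem_iff hσ _).2 A.2

theorem gu2ToSU3_injective (hσ : ∀ x : F, star x = x ^ q) : Function.Injective (gu2ToSU3 hσ) :=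
  fun _ _ h => Subtype.ext (gl2ToSL3_injective (congrArg Subtype.val h))

theorem range_gu2ToSU3 (hσ : ∀ x : F, star x = x ^ q) (h2 : (2 : F) ≠ 0) {n : GU2 F q}
    (hn : (n : GL (Fin 2) F) = -1) : (gu2ToSU3 hσ).range = centralizer {gu2ToSU3 hσ n} := by
  ext g
  have e : ((gu2ToSU3 hσ n : SU 3 F q) : SL(3, F)) = gl2ToSL3 (-1 : GL (Fin 2) F) := by
    rw [← hn]; rfl
  have h1 : g ∈ centralizer {gu2ToSU3 hσ n} ↔ (g : SL(3, F)) ∈ (gl2ToSL3 (F := F)).range := by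
    rw [sl3_hr h2, mem_centralizer_singleton_iff, mem_centralizer_singleton_iff, ← e,
      Subtype.ext_iff]
    rfl
  rw [h1]
  constructor
  · rintro ⟨A, rfl⟩
    exact ⟨A, rfl⟩
  · rintro ⟨A, hA⟩
    exact ⟨⟨A, (gl2ToSL3_mem_iff hσ _).1 (hA ▸ g.2)⟩, Subtype.ext hA⟩

section refl
variable {ι : Type*} [Fintype ι] [DecidableEq ι]

/-- A unitary matrix carrying one unit vector to another. -/
theorem exists_unitary_mulVec {u w : ι → F} (hu : star u ⬝ᵥ u = 1) (hw : star w ⬝ᵥ w = 1)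
    (hc : star w ⬝ᵥ u ≠ 1) : ∃ R : Matrix ι ι F, Rᴴ * R = 1 ∧ R *ᵥ u = w := by
  set v := u - w with hv
  set c := star v ⬝ᵥ u with hcv
  have h1 : c = 1 - star w ⬝ᵥ u := by rw [hcv, hv, star_sub, sub_dotProduct, hu]
  have hc0 : c ≠ 0 := by rw [h1]; exact sub_ne_zero.2 hc.symm
  have hs0 : star c ≠ 0 := star_ne_zero.2 hc0
  have h2 : star v ⬝ᵥ v = c + star c := by
    have h3 : star c = 1 - star u ⬝ᵥ w := by rw [h1, star_sub, star_one, ← Matrix.star_dotProduct]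
    rw [h3, h1, hv, star_sub, sub_dotProduct, dotProduct_sub, dotProduct_sub, hu, hw]
    ring
  refine ⟨1 - c⁻¹ • Matrix.vecMulVec v (star v), ?_, ?_⟩
  · rw [Matrix.conjTranspose_sub, Matrix.conjTranspose_one, Matrix.conjTranspose_smul,
      Matrix.conjTranspose_vecMulVec, star_star, sub_mul, one_mul, mul_sub, mul_one,
      smul_mul_smul_comm, Matrix.vecMulVec_mul_vecMulVec, h2, Matrix.vecMulVec_smul, smul_smul,
      star_inv₀, show (star c)⁻¹ * c⁻¹ * (c + star c) = (star c)⁻¹ + c⁻¹ by field_simp, add_smul]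
    abel
  · rw [Matrix.sub_mulVec, Matrix.one_mulVec, Matrix.smul_mulVec, Matrix.vecMulVec_mulVec, ← hcv]
    ext i
    simp only [Pi.sub_apply, Pi.smul_apply, MulOpposite.smul_eq_mul_unop, MulOpposite.unop_op,
      smul_eq_mul, hv]
    field_simp
    ring

theorem conj_vecMulVec (R : Matrix ι ι F) (u : ι → F) :
    R * Matrix.vecMulVec u (star u) * Rᴴ = Matrix.vecMulVec (R *ᵥ u) (star (R *ᵥ u)) := by
  rw [Matrix.mul_vecMulVec, Matrix.vecMulVec_mul, Matrix.star_mulVec]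

omit [DecidableEq ι] in
/-- A hermitian idempotent of rank one comes from a unit vector. -/
theorem exists_unit_of_hermitian (hN : ∀ c : F, c ≠ 0 → star c = c → ∃ l : F, star l * l = c)
    {a b : ι → F} (hab : b ⬝ᵥ a = 1) (h : (Matrix.vecMulVec a b)ᴴ = Matrix.vecMulVec a b) :
    ∃ w : ι → F, star w ⬝ᵥ w = 1 ∧ Matrix.vecMulVec w (star w) = Matrix.vecMulVec a b := by
  rw [Matrix.conjTranspose_vecMulVec] at h
  set N := star a ⬝ᵥ a with hNa
  have h1 : star a = N • b := by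
    have := congrArg (fun M => star a ᵥ* M) h
    simp only [Matrix.vecMul_vecMulVec] at this
    rwa [Matrix.star_dotProduct_star, hab, star_one, one_smul] at this
  have hN0 : N ≠ 0 := fun e => by
    rw [e, zero_smul, star_eq_zero] at h1
    rw [h1, dotProduct_zero] at hab
    exact zero_ne_one hab
  obtain ⟨l, hl⟩ := hN N⁻¹ (inv_ne_zero hN0) (by rw [star_inv₀, hNa, ← Matrix.star_dotProduct])
  refine ⟨l • a, ?_, ?_⟩
  · rw [star_smul, smul_dotProduct, dotProduct_smul, smul_smul, hl, smul_eq_mul, inv_mul_cancel₀ hN0]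
  · rw [star_smul, Matrix.smul_vecMulVec, Matrix.vecMulVec_smul, smul_smul, mul_comm, hl, h1,
      Matrix.vecMulVec_smul, smul_smul, inv_mul_cancel₀ hN0, one_smul]

end refl

omit [StarRing F] in
theorem coe_sl3Inv_eq : (sl3Inv (F := F)).1 =
    (2 : F) • Matrix.vecMulVec (Pi.single 2 1) (Pi.single 2 1) - 1 := by
  rw [coe_sl3Inv]
  ext i j; fin_cases i <;> fin_cases j <;> simp [Matrix.vecMulVec_apply] <;> norm_num

theorem isConj_su3 (hσ : ∀ x : F, star x = x ^ q) (h2 : (2 : F) ≠ 0)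
    (hN : ∀ c : F, c ≠ 0 → star c = c → ∃ l : F, star l * l = c) {t s : SU 3 F q}
    (ht : (t : SL(3, F)) = sl3Inv) (hs : orderOf s = 2) : IsConj t s := by
  have hss : (s : SL(3, F)) * s = 1 := congrArg Subtype.val (mul_self_of_orderOf_two hs)
  obtain ⟨Q, hQ⟩ := _root_.isConj_iff.1 (isConj_sl3Inv h2 hss
    fun e => ne_one_of_orderOf_two hs (Subtype.ext e))
  set u : Fin 3 → F := Pi.single 2 1 with hu
  have hsu : star u = u := by rw [hu, Pi.star_single, star_one]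
  have huu : star u ⬝ᵥ u = 1 := by rw [hsu, hu]; simp
  have hQQ : Q.1 * (Q⁻¹).1 = 1 := congrArg (fun M : SL(3, F) => M.1) (mul_inv_cancel Q)
  have h1 : (s : SL(3, F)).1 = (2 : F) • Matrix.vecMulVec (Q.1 *ᵥ u) (u ᵥ* (Q⁻¹).1) - 1 := by
    rw [← hQ, Matrix.SpecialLinearGroup.coe_mul, Matrix.SpecialLinearGroup.coe_mul, coe_sl3Inv_eq,
      mul_sub, sub_mul, mul_one, hQQ, mul_smul_comm, smul_mul_assoc, Matrix.mul_vecMulVec,
      Matrix.vecMulVec_mul]
  have h3 : (s : SL(3, F)).1ᴴ = (s : SL(3, F)).1 := by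
    have e1 : (s : SL(3, F)).1ᴴ * (s : SL(3, F)).1 = 1 := (mem_herm_iff hσ _ _).1 s.2
    have e2 : (s : SL(3, F)).1 * (s : SL(3, F)).1 = 1 := congrArg (fun M : SL(3, F) => M.1) hss
    rw [← mul_one (s : SL(3, F)).1ᴴ, ← e2, ← mul_assoc, e1, one_mul]
  obtain ⟨w₀, hw₀, e₀⟩ := exists_unit_of_hermitian hN (a := Q.1 *ᵥ u) (b := u ᵥ* (Q⁻¹).1)
    (by rw [Matrix.dotProduct_mulVec, Matrix.vecMul_vecMul, mul_eq_one_comm.1 hQQ,
      Matrix.vecMul_one, ← huu, hsu]) (by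
      rw [h1, Matrix.conjTranspose_sub, Matrix.conjTranspose_one, sub_left_inj,
        Matrix.conjTranspose_smul, star_ofNat] at h3
      exact smul_right_injective _ h2 h3)
  obtain ⟨w, hw, e, hc⟩ : ∃ w : Fin 3 → F, star w ⬝ᵥ w = 1 ∧ Matrix.vecMulVec w (star w) =
      Matrix.vecMulVec (Q.1 *ᵥ u) (u ᵥ* (Q⁻¹).1) ∧ star w ⬝ᵥ u ≠ 1 := by
    by_cases hc : star w₀ ⬝ᵥ u = 1
    · refine ⟨-w₀, by simpa using hw₀, by simpa using e₀, ?_⟩
      rw [star_neg, neg_dotProduct, hc]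
      exact fun h => h2 (by linear_combination -h)
    · exact ⟨w₀, hw₀, e₀, hc⟩
  obtain ⟨R, hR, hRu⟩ := exists_unitary_mulVec huu hw hc
  have hd := star_det_mul hR
  have hd0 : R.det ≠ 0 := right_ne_zero_of_mul_eq_one hd
  let D : Matrix (Fin 3) (Fin 3) F := Matrix.diagonal ![R.det⁻¹, 1, 1]
  have hD : Dᴴ * D = 1 := by
    rw [Matrix.diagonal_conjTranspose, Matrix.diagonal_mul_diagonal, ← Matrix.diagonal_one]
    congr 1
    ext i; fin_cases i <;> simp
    rw [← mul_inv, hd, inv_one]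
  have hDu : D *ᵥ u = u := by
    ext i; fin_cases i <;> simp [D, hu, Matrix.mulVec_diagonal]
  have hRD : (R * D)ᴴ * (R * D) = 1 := by
    rw [Matrix.conjTranspose_mul, mul_assoc, ← mul_assoc _ R, hR, one_mul, hD]
  let P : SU 3 F q := ⟨⟨R * D, by
    rw [Matrix.det_mul, Matrix.det_diagonal, Fin.prod_univ_three]; simp [hd0]⟩,
    (mem_herm_iff hσ _ _).2 hRD⟩
  refine _root_.isConj_iff.2 ⟨P, mul_inv_eq_iff_eq_mul.2 (Subtype.ext (Subtype.ext ?_))⟩
  change R * D * (t : SL(3, F)).1 = (s : SL(3, F)).1 * (R * D)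
  have h4 := conj_vecMulVec (R * D) u
  rw [← Matrix.mulVec_mulVec, hDu, hRu, e, hsu] at h4
  rw [ht, h1, coe_sl3Inv_eq, ← h4, mul_sub, sub_mul, mul_one, one_mul, smul_mul_assoc, mul_assoc _ _ (R * D),
    hRD, mul_one, mul_smul_comm]

theorem simpleFus_SU3_aux [Fintype F] (hσ : ∀ x : F, star x = x ^ q) (hF : Fintype.card F = q ^ 2)
    (hq : q % 2 = 1) : SimpleFus 2 (SU 3 F q) ∧ Odd (Nat.card (center (SU 3 F q))) := by
  have h2 : (2 : F) ≠ 0 := two_ne_zero_of_odd_card (by rw [hF, Nat.pow_mod, hq])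
  obtain ⟨n, hn, hO⟩ := om_GU2 hσ h2
  have hN : ∀ c : F, c ≠ 0 → star c = c → ∃ l : F, star l * l = c := fun c hc hc' => by
    have := card_norm_fiber hF hc (by rw [← hσ, hc'])
    obtain ⟨⟨l, hl⟩⟩ := (Nat.card_pos_iff.1 (this.symm ▸ Nat.succ_pos q :
      0 < Nat.card {x : F // x ^ (q + 1) = c})).1
    exact ⟨l, by rw [hσ, ← pow_succ, hl]⟩
  have ht : ((gu2ToSU3 hσ n : SU 3 F q) : SL(3, F)) = sl3Inv := by
    rw [← gl2ToSL3_neg_one, ← hn]; rfl
  have hall : ∀ s : SU 3 F q, orderOf s = 2 → IsConj (gu2ToSU3 hσ n) s := fun s hs =>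
    isConj_su3 hσ h2 hN ht hs
  have hi := gu2ToSU3_injective hσ
  have hr := range_gu2ToSU3 hσ h2 hn
  obtain ⟨P⟩ : Nonempty (Sylow 2 (GU2 F q)) := inferInstance
  have key : SimpleFus 2 (SU 3 F q) ∧ ∃ a b : GU2 F q, orderOf a = 2 ∧ orderOf b = 2 ∧ a ≠ b := by
    rcases (show q % 4 = 1 ∨ q % 4 = 3 by omega) with h | h
    · obtain ⟨k, x, y, hm⟩ := exists_mc_of_isQuasiDihedral (isQuasiDihedral_sylow_GU2 hF P h)
      exact ⟨(hO.model_ext hi hr hall (sylIn_top P) hm).simpleFus, _, _,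
        hm.orderOf_outer_even (i := 0) (by simp), hm.orderOf_z, hm.outer_ne _ _⟩
    · obtain ⟨k, x, y, z, hm⟩ := exists_wr (isWreathed_sylow_GU2 hF P h)
      exact ⟨(hO.wmodel_ext hi hr hall (sylIn_top P) hm).simpleFus, _, _,
        hm.orderOf_a, hm.orderOf_c, fun e => hm.a_not_mem_Z (e ▸ hm.c_mem_Z)⟩
  obtain ⟨h3, a, b, ha, hb, hab⟩ := key
  refine ⟨h3, odd_card_iff.2 fun z hz ho => hab (hi ?_)⟩
  have h4 : ∀ c : GU2 F q, orderOf c = 2 → z = gu2ToSU3 hσ c := fun c hc =>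
    eq_of_isConj_of_central ((hall z ho).symm.trans (hall _ (by rw [orderOf_injective _ hi, hc])))
      (mem_center_iff.1 hz)
  rw [← h4 a ha, h4 b hb]

theorem simpleFus_PSU3 {F : Type*} [Field F] [Fintype F] {q : ℕ} (hF : Fintype.card F = q ^ 2)
    (hq : q % 2 = 1) : SimpleFus 2 (PSU 3 F q) := by
  obtain ⟨σ, hσ⟩ := exists_pow_card_eq two_ne_zero hF
  letI : StarRing F :=
    { star := σ
      star_involutive := fun x => by
        change σ (σ x) = x
        rw [hσ, hσ, ← pow_mul, ← pow_two, ← hF, FiniteField.pow_card]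
      star_mul := fun a b => by change σ (a * b) = σ b * σ a; rw [map_mul, mul_comm]
      star_add := fun a b => map_add σ a b }
  have := simpleFus_SU3_aux (F := F) hσ hF hq
  exact this.1.quotient_center (Nat.coprime_two_right.2 this.2)

end Cfsg.Agent.H6
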