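import Cfsg.Agent.Lib.H6.GL2Fus

/-! The `2`-fusion system of `PSp₄(q)`: the group-theoretic part (helper6). -/

set_option autoImplicit false
set_option linter.style.haveILetI false
open Cfsg Subgroup
open scoped Pointwise commutatorElement

namespace Cfsg.Agent.H6

open H2 FusionSystem

variable {L X : Type*} [Group L] [Group X]

/-- The subgroup generated by the diagonal quaternion group, the swap and the involution. -/
abbrev spE (ψ : L × L →* X) (t : X) (n c u : L) : Subgroup X :=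
  closure {ψ (c, c), ψ (u, u), t, ψ (1, n)}

/-- The configuration `SL₂ ≀ 2 ≤ Sp₄`. -/
structure SpSet (ψ : L × L →* X) (t : X) (n : L) : Prop where
  inj : Function.Injective ψ
  tt : t * t = 1
  swap : ∀ a b, t * ψ (a, b) * t⁻¹ = ψ (b, a)
  nm : t ∉ ψ.range
  om : Om n
  cen : ∀ g, g ∈ center X ↔ g = 1 ∨ g = ψ (n, n)
  cz : ∀ g, g * ψ (1, n) * g⁻¹ = ψ (1, n) → g ∈ ψ.range
  cq : ∀ c u a : L, c * c = n → u * u = n → u * c * u⁻¹ = c⁻¹ → a * c = c * a → a * u = u * a →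
    a = 1 ∨ a = n
  ext : ∀ c u : L, c * c = n → u * u = n → u * c * u⁻¹ = c⁻¹ → ∃ (α β : X) (w : L),
    α * α = ψ (n, n) ∧ β * β = ψ (n, n) ∧ α ∈ normalizer (spE ψ t n c u : Set X) ∧
    β ∈ normalizer (spE ψ t n c u : Set X) ∧ α * β * ψ (w, w) = 1 ∧ w * u * w⁻¹ = c ∧
    w * c * w⁻¹ = c * u ∧ α * ψ (1, n) * α⁻¹ = t * ψ (n, n)

namespace SpSet

variable {ψ : L × L →* X} {t : X} {n : L}

/-- The Sylow subgroup upstairs. -/
abbrev syl (ψ : L × L →* X) (t : X) (U : Subgroup L) : Subgroup X := (U.prod U).map ψ ⊔ zpowers t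

theorem nn (h : SpSet ψ t n) : n * n = 1 := mul_self_of_orderOf_two h.om.ord

theorem n_ne (h : SpSet ψ t n) : n ≠ 1 := ne_one_of_orderOf_two h.om.ord

theorem t_inv (h : SpSet ψ t n) : t⁻¹ = t := inv_eq_of_mul_eq_one_right h.tt

theorem t_mul (h : SpSet ψ t n) (a b : L) : t * ψ (a, b) = ψ (b, a) * t :=
  mul_inv_eq_iff_eq_mul.1 (h.swap a b)

theorem eq_iff (h : SpSet ψ t n) {a b c d : L} : ψ (a, b) = ψ (c, d) ↔ a = c ∧ b = d :=
  h.inj.eq_iff.trans Prod.ext_iff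

theorem mul_t_ne (h : SpSet ψ t n) (p q : L × L) : ψ p * t ≠ ψ q := fun e =>
  h.nm ⟨p⁻¹ * q, by rw [map_mul, map_inv, ← e, inv_mul_cancel_left]⟩

theorem mk_eq (h : SpSet ψ t n) {g g' : X} :
    QuotientGroup.mk' (center X) g = QuotientGroup.mk' (center X) g' ↔
      g = g' ∨ g = g' * ψ (n, n) := by
  rw [QuotientGroup.mk'_apply, QuotientGroup.mk'_apply, eq_comm, QuotientGroup.eq, h.cen,
    inv_mul_eq_one, inv_mul_eq_iff_eq_mul, eq_comm]

theorem mem_syl [Finite X] (h : SpSet ψ t n) {U : Subgroup L} {g : X} :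
    g ∈ syl ψ t U ↔ ∃ a ∈ U, ∃ b ∈ U, g = ψ (a, b) ∨ g = ψ (a, b) * t := by
  rw [mem_sup_zpowers (mem_normalizer_of_conj_mem ?_) (h.tt ▸ one_mem _)]
  · constructor
    · rintro (⟨⟨a, b⟩, hab, rfl⟩ | ⟨⟨a, b⟩, hab, e⟩)
      · exact ⟨a, hab.1, b, hab.2, Or.inl rfl⟩
      · exact ⟨a, hab.1, b, hab.2, Or.inr (mul_inv_eq_iff_eq_mul.1 e.symm)⟩
    · rintro ⟨a, ha, b, hb, rfl | rfl⟩
      · exact Or.inl ⟨(a, b), ⟨ha, hb⟩, rfl⟩
      · exact Or.inr ⟨(a, b), ⟨ha, hb⟩, by simp⟩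
  · rintro _ ⟨⟨a, b⟩, hab, rfl⟩
    exact ⟨(b, a), ⟨hab.2, hab.1⟩, (h.swap a b).symm⟩

theorem psi_mem_syl [Finite X] (h : SpSet ψ t n) {U : Subgroup L} {a b : L} :
    ψ (a, b) ∈ syl ψ t U ↔ a ∈ U ∧ b ∈ U := by
  rw [h.mem_syl]
  refine ⟨?_, fun ⟨ha, hb⟩ => ⟨a, ha, b, hb, Or.inl rfl⟩⟩
  rintro ⟨c, hc, d, hd, e | e⟩
  · obtain ⟨rfl, rfl⟩ := h.eq_iff.1 e
    exact ⟨hc, hd⟩
  · exact absurd e.symm (h.mul_t_ne _ _)

theorem t_mem_syl (U : Subgroup L) : t ∈ syl ψ t U := mem_sup_right (mem_zpowers t)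

theorem card_syl [Finite X] (h : SpSet ψ t n) (U : Subgroup L) :
    Nat.card (syl ψ t U) = 2 * (Nat.card U * Nat.card U) := by
  rw [card_sup_zpowers_eq (mem_normalizer_of_conj_mem ?_) (h.tt ▸ one_mem _)
    (fun e => h.nm (map_le_range _ _ e)), card_map_of_injective h.inj,
    Nat.card_congr (prodEquiv U U).toEquiv, Nat.card_prod]
  rintro _ ⟨⟨a, b⟩, hab, rfl⟩
  exact ⟨(b, a), ⟨hab.2, hab.1⟩, (h.swap a b).symm⟩

theorem mem_top_of (h : SpSet ψ t n) {g : X}
    (e : g * ψ (1, n) * g⁻¹ = ψ (1, n) ∨ g * ψ (1, n) * g⁻¹ = ψ (1, n) * ψ (n, n)) :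
    ∃ a b, g = ψ (a, b) ∨ g = ψ (a, b) * t := by
  rcases e with e | e
  · obtain ⟨⟨a, b⟩, rfl⟩ := h.cz g e
    exact ⟨a, b, Or.inl rfl⟩
  · obtain ⟨⟨a, b⟩, e'⟩ := h.cz (t * g) (by
      rw [mul_inv_rev, mul_assoc t, mul_assoc t, ← mul_assoc _ g⁻¹, e, ← map_mul, ← mul_assoc,
        Prod.mk_mul_mk, one_mul, h.nn, h.swap])
    exact ⟨b, a, Or.inr (by rw [← h.t_mul, e', ← mul_assoc, h.tt, one_mul])⟩

variable [Finite X] [Finite L] {U : Subgroup L} {m : ℕ} {x y : L}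

theorem mk_mem (h : SpSet ψ t n) (hU : SylIn 2 U ⊤) {g : X} :
    QuotientGroup.mk' (center X) g ∈ (syl ψ t U).map (QuotientGroup.mk' (center X)) ↔
      g ∈ syl ψ t U := by
  refine ⟨?_, mem_map_of_mem _⟩
  rintro ⟨s, hs, e⟩
  rcases h.mk_eq.1 e.symm with rfl | rfl
  · exact hs
  · exact mul_mem hs (h.psi_mem_syl.2 ⟨h.om.mem hU, h.om.mem hU⟩)

theorem center_syl (h : SpSet ψ t n) (hU : SylIn 2 U ⊤) (hm : MC U m 0 1 x y) {g : X}
    (hg : g ∈ syl ψ t U) (hc : ∀ s ∈ syl ψ t U, g * s * g⁻¹ = s ∨ g * s * g⁻¹ = s * ψ (n, n)) :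
    QuotientGroup.mk' (center X) g = 1 ∨
      QuotientGroup.mk' (center X) g = QuotientGroup.mk' (center X) (ψ (1, n)) := by
  have hz := hm.eq_z (h.om.mem hU) h.om.ord fun g _ => h.om.comm g
  have key : ∀ a ∈ U, (∀ s ∈ U, a * s * a⁻¹ = s) → a = 1 ∨ a = n := fun a ha hc => by
    have := hm.mem_zpowers_z ha fun s hs => (mul_inv_eq_iff_eq_mul.1 (hc s hs)).symm
    rw [← hz] at this
    by_cases h1 : a = 1
    · exact Or.inl h1
    · exact Or.inr (eq_of_mem_zpowers_of_orderOf_two h.om.ord this h1)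
  obtain ⟨a, ha, b, hb, rfl | rfl⟩ := h.mem_syl.1 hg
  · have h1 := key a ha fun s hs => by
      have := hc _ (h.psi_mem_syl.2 ⟨hs, one_mem _⟩)
      simp only [← map_inv, ← map_mul, Prod.inv_mk, Prod.mk_mul_mk, h.eq_iff, mul_one,
        mul_inv_cancel, one_mul] at this
      exact this.elim (fun e => e.1) fun e => absurd e.2.symm h.n_ne
    have h2 := key b hb fun s hs => by
      have := hc _ (h.psi_mem_syl.2 ⟨one_mem _, hs⟩)
      simp only [← map_inv, ← map_mul, Prod.inv_mk, Prod.mk_mul_mk, h.eq_iff, mul_one,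
        mul_inv_cancel, one_mul] at this
      exact this.elim (fun e => e.2) fun e => absurd e.1.symm h.n_ne
    rw [← map_one (QuotientGroup.mk' (center X)), h.mk_eq, h.mk_eq, ← map_one ψ]
    simp only [← map_mul, Prod.mk_mul_mk, ← Prod.mk_one_one, h.eq_iff, one_mul, h.nn]
    tauto
  · exfalso
    have := hc _ (h.psi_mem_syl.2 ⟨hm.x_mem, one_mem _⟩)
    rw [mul_inv_rev, mul_assoc _ t, mul_assoc (ψ _), ← mul_assoc _ t⁻¹, h.swap, ← mul_assoc] at this
    simp only [← map_inv, ← map_mul, Prod.inv_mk, Prod.mk_mul_mk, h.eq_iff, mul_one,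
      mul_inv_cancel, one_mul] at this
    have h4 := hm.ord
    have h5 := hm.pos
    rcases this with e | e
    · rw [← e.1, orderOf_one] at h4; omega
    · rw [eq_inv_of_mul_eq_one_left e.1.symm, orderOf_inv, h.om.ord] at h4; omega

theorem mk_z_ne (h : SpSet ψ t n) : QuotientGroup.mk' (center X) (ψ (1, n)) ≠ 1 := by
  rw [← map_one (QuotientGroup.mk' (center X)), Ne, h.mk_eq, ← map_one ψ]
  simp only [← map_mul, Prod.mk_mul_mk, ← Prod.mk_one_one, h.eq_iff, one_mul, h.n_ne, h.n_ne.symm]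
  simp

theorem eq_z (h : SpSet ψ t n) (hU : SylIn 2 U ⊤) (hm : MC U m 0 1 x y) {g : X ⧸ center X}
    (hg : g ∈ (syl ψ t U).map (QuotientGroup.mk' (center X))) (h1 : g ≠ 1)
    (hc : ∀ s ∈ (syl ψ t U).map (QuotientGroup.mk' (center X)), s * g = g * s) :
    g = QuotientGroup.mk' (center X) (ψ (1, n)) := by
  obtain ⟨g, hg, rfl⟩ := hg
  refine (h.center_syl hU hm hg fun s hs => h.mk_eq.1 ?_).resolve_left h1
  rw [map_mul, map_mul, map_inv, ← hc _ (mem_map_of_mem _ hs), mul_inv_cancel_right]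

theorem z_comm (h : SpSet ψ t n) {s : X ⧸ center X}
    (hs : s ∈ (syl ψ t U).map (QuotientGroup.mk' (center X))) :
    s * QuotientGroup.mk' (center X) (ψ (1, n)) = QuotientGroup.mk' (center X) (ψ (1, n)) * s := by
  obtain ⟨s, hs, rfl⟩ := hs
  rw [← map_mul, ← map_mul, h.mk_eq]
  obtain ⟨a, -, b, -, rfl | rfl⟩ := h.mem_syl.1 hs
  · left
    simp only [← map_mul, Prod.mk_mul_mk, h.om.comm, mul_one, one_mul]
  · right
    rw [mul_assoc, h.t_mul, mul_assoc, mul_assoc, h.t_mul, ← mul_assoc, ← mul_assoc, ← mul_assoc]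
    simp only [← map_mul, Prod.mk_mul_mk, mul_one, one_mul, ← h.om.comm b, mul_assoc b, h.nn]

theorem of_mem_normalizer (h : SpSet ψ t n) (hU : SylIn 2 U ⊤) (hm : MC U m 0 1 x y) {g : X}
    (hg : QuotientGroup.mk' (center X) g ∈
      normalizer ((syl ψ t U).map (QuotientGroup.mk' (center X)) : Set (X ⧸ center X))) :
    ∃ a b, g = ψ (a, b) ∨ g = ψ (a, b) * t := by
  refine h.mem_top_of (h.mk_eq.1 ?_)
  rw [map_mul, map_mul, map_inv]
  refine h.eq_z hU hm (conj_mem_of_mem_normalizer hg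
    ((h.mk_mem hU).2 (h.psi_mem_syl.2 ⟨one_mem _, h.om.mem hU⟩))) (by simpa using h.mk_z_ne)
    fun s hs => ?_
  have := h.z_comm (conj_mem_of_mem_normalizer' hg hs)
  calc _ = QuotientGroup.mk' (center X) g * ((QuotientGroup.mk' (center X) g)⁻¹ * s *
        QuotientGroup.mk' (center X) g * QuotientGroup.mk' (center X) (ψ (1, n))) *
        (QuotientGroup.mk' (center X) g)⁻¹ := by group
    _ = _ := by rw [this]; group

theorem sylIn (h : SpSet ψ t n) (hU : SylIn 2 U ⊤) (hm : MC U m 0 1 x y) :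
    SylIn 2 ((syl ψ t U).map (QuotientGroup.mk' (center X))) ⊤ := by
  obtain ⟨j, u, hu, e⟩ := Nat.exists_eq_two_pow_mul_odd (Nat.card_pos (α := L)).ne'
  have h1 : SylIn 2 (syl ψ t U) (syl ψ t ⊤) := by
    refine sylIn_of_card (sup_le_sup_right (map_mono (prod_mono le_top le_top)) _) (k := 2 * j + 1)
      (by rw [h.card_syl, hU.card_eq_two_pow hu e]; ring) ?_
    refine not_two_pow_succ_dvd (hu.mul hu) ?_
    rw [h.card_syl, card_top, e]; ring
  refine sylIn_of_normalizer ((h1.map' _).mono (le_inf le_top le_normalizer) fun g hg => ?_)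
  obtain ⟨g, rfl⟩ := QuotientGroup.mk'_surjective _ g
  obtain ⟨a, b, e⟩ := h.of_mem_normalizer hU hm hg.2
  exact mem_map_of_mem _ (h.mem_syl.2 ⟨a, trivial, b, trivial, e⟩)

theorem le_of_closed (h : SpSet ψ t n) (hU : SylIn 2 U ⊤) (hm : MC U m 0 1 x y) {T : Subgroup X}
    (hz : ψ (1, n) ∈ T) (hn : ψ (n, n) ∈ T)
    (hT : ∀ s ∈ T, ∀ g, g * s * g⁻¹ ∈ syl ψ t U → g * s * g⁻¹ ∈ T) : syl ψ t U ≤ T := by
  have hz' := hm.eq_z (h.om.mem hU) h.om.ord fun g _ => h.om.comm g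
  have hcc : x ^ (m : ℤ) * x ^ (m : ℤ) = n := by rw [hz', ← zpow_add, two_mul]
  have huu : ∀ i : ℤ, x ^ i * y * (x ^ i * y) = n := fun i => by rw [hz', hm.outer_odd_sq (by simp)]
  have hnU := h.psi_mem_syl.2 ⟨h.om.mem hU, h.om.mem hU⟩
  have ht : t ∈ T := by
    obtain ⟨α, -, -, -, -, -, -, -, -, -, e⟩ := h.ext _ _ hcc (huu 0) (hm.outer_conj_c 0)
    have := hT _ hz α (e ▸ mul_mem (t_mem_syl U) hnU)
    rw [e] at this
    simpa using mul_mem this (inv_mem hn)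
  have h1 : ∀ a ∈ U, ψ (a, a⁻¹) ∈ T := fun a ha => by
    have h2 := h.psi_mem_syl.2 ⟨ha, one_mem U⟩
    have := mul_mem (hT _ ht _ (mul_mem (mul_mem h2 (t_mem_syl U)) (inv_mem h2))) ht
    rw [← map_inv, Prod.inv_mk, mul_assoc _ t, h.t_mul, ← mul_assoc, mul_assoc _ t, h.tt,
      ← map_mul] at this
    simpa using this
  have h2 : ∀ i : ℤ, ψ (x ^ i * y, 1) ∈ T := fun i => by
    obtain ⟨w, hw⟩ := h.om.conj _ _ hcc (huu (i - m)) (hm.outer_conj_c _)
    have h3 := h1 _ (hm.zpow_mem m)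
    have e : ψ (w⁻¹, 1) * ψ (x ^ (m : ℤ), (x ^ (m : ℤ))⁻¹) * (ψ (w⁻¹, 1))⁻¹ =
        ψ (x ^ (i - m) * y, (x ^ (m : ℤ))⁻¹) := by
      rw [← map_inv, ← map_mul, ← map_mul, ← hw]
      simp [mul_assoc]
    have h4 := hT _ h3 _ (e ▸ h.psi_mem_syl.2 ⟨hm.outer_mem _, inv_mem (hm.zpow_mem m)⟩)
    rw [e] at h4
    have := mul_mem h4 (inv_mem h3)
    rw [← map_inv, ← map_mul, Prod.inv_mk, Prod.mk_mul_mk, ← zpow_neg, hm.outer_mul_zpow] at this
    simpa using this
  have h3 : ∀ a ∈ U, ψ (a, 1) ∈ T := fun a ha => by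
    obtain ⟨i, rfl | rfl⟩ := (hm.mem_iff a).1 ha
    · have := mul_mem (h2 i) (inv_mem (h2 0))
      rw [← map_inv, ← map_mul] at this
      simpa using this
    · exact h2 i
  have h4 : ∀ a ∈ U, ∀ b ∈ U, ψ (a, b) ∈ T := fun a ha b hb => by
    have := mul_mem (h3 a ha) (mul_mem (mul_mem ht (h3 b hb)) (inv_mem ht))
    rw [h.swap, ← map_mul] at this
    simpa using this
  intro g hg
  obtain ⟨a, ha, b, hb, rfl | rfl⟩ := h.mem_syl.1 hg
  exacts [h4 a ha b hb, mul_mem (h4 a ha b hb) ht]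

omit [Finite X] [Finite L] in
theorem mem_spE (h : SpSet ψ t n) {c u : L} (hc : c * c = n) (hu : u * u = n)
    (hcu : u * c * u⁻¹ = c⁻¹) {g : X}
    (hg : ∀ s ∈ spE ψ t n c u, g * s * g⁻¹ = s ∨ g * s * g⁻¹ = s * ψ (n, n)) :
    g ∈ spE ψ t n c u := by
  have m1 : ψ (c, c) ∈ spE ψ t n c u := subset_closure (by simp)
  have m2 : ψ (u, u) ∈ spE ψ t n c u := subset_closure (by simp)
  have m3 : t ∈ spE ψ t n c u := subset_closure (by simp)
  have m4 : ψ (1, n) ∈ spE ψ t n c u := subset_closure (by simp)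
  have m5 : ψ (n, n) ∈ spE ψ t n c u := by
    simpa only [← map_mul, Prod.mk_mul_mk, hc] using mul_mem m1 m1
  have hci : c⁻¹ = c * n := inv_eq_of_mul_eq_one_right (by rw [← mul_assoc, hc, h.nn])
  have e1 : u * c = c * u * n := by
    rw [mul_inv_eq_iff_eq_mul.1 hcu, hci, mul_assoc, ← h.om.comm, mul_assoc]
  have k0 : ∀ a, a * c = c * a → a * u = u * a → ψ (a, a) ∈ spE ψ t n c u := fun a h1 h2 => by
    rcases h.cq c u a hc hu hcu h1 h2 with rfl | rfl
    · exact (map_one ψ).symm ▸ one_mem _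
    · exact m5
  have k1 : ∀ a, a * c = c * a → (a * u = u * a ∨ a * u = u * a * n) →
      ψ (a, a) ∈ spE ψ t n c u := by
    rintro a h1 (h2 | h2)
    · exact k0 a h1 h2
    · have := k0 (c * a) (by rw [mul_assoc, h1]) (by
        rw [mul_assoc, h2, ← mul_assoc u c, e1, mul_assoc (c * u), ← h.om.comm]
        simp only [mul_assoc])
      simpa only [← map_inv, ← map_mul, Prod.inv_mk, Prod.mk_mul_mk, inv_mul_cancel_left]
        using mul_mem (inv_mem m1) this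
  have k2 : ∀ a, (a * c = c * a ∨ a * c = c * a * n) → (a * u = u * a ∨ a * u = u * a * n) →
      ψ (a, a) ∈ spE ψ t n c u := by
    rintro a (h1 | h1) h2
    · exact k1 a h1 h2
    · have := k1 (u * a) (by
        rw [mul_assoc, h1, ← mul_assoc, ← mul_assoc, e1, mul_assoc _ n, ← h.om.comm,
          mul_assoc _ _ n, mul_assoc _ n, h.nn, mul_one, mul_assoc])
        (h2.imp (fun e => by rw [mul_assoc, e]) fun e => by rw [mul_assoc, e, mul_assoc u (u * a)])
      simpa only [← map_inv, ← map_mul, Prod.inv_mk, Prod.mk_mul_mk, inv_mul_cancel_left]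
        using mul_mem (inv_mem m2) this
  have k3 : ∀ a b, (∀ s ∈ ({ψ (c, c), ψ (u, u), t} : Set X), ψ (a, b) * s * (ψ (a, b))⁻¹ = s ∨
      ψ (a, b) * s * (ψ (a, b))⁻¹ = s * ψ (n, n)) → ψ (a, b) ∈ spE ψ t n c u := fun a b hab => by
    have f1 := hab (ψ (c, c)) (by simp)
    have f2 := hab (ψ (u, u)) (by simp)
    have f3 := hab t (by simp)
    simp only [← map_inv, ← map_mul, Prod.inv_mk, Prod.mk_mul_mk, h.eq_iff,
      mul_inv_eq_iff_eq_mul] at f1 f2
    have f0 : ∀ s, s * n * a = s * a * n := fun s => by rw [mul_assoc, ← h.om.comm, mul_assoc]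
    rw [f0] at f1 f2
    have f4 := k2 a (f1.imp And.left And.left) (f2.imp And.left And.left)
    rw [mul_inv_eq_iff_eq_mul, mul_inv_eq_iff_eq_mul, mul_assoc t, ← map_mul, Prod.mk_mul_mk,
      h.t_mul, h.t_mul, mul_left_inj, mul_left_inj, h.eq_iff, h.eq_iff] at f3
    rcases f3 with ⟨rfl, -⟩ | ⟨-, rfl⟩
    · exact f4
    · simpa only [← map_mul, Prod.mk_mul_mk, one_mul] using mul_mem m4 f4
  obtain ⟨a, b, rfl | rfl⟩ := h.mem_top_of (hg _ m4)
  · exact k3 a b fun s hs => hg s (subset_closure (by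
      simp only [Set.mem_insert_iff, Set.mem_singleton_iff] at hs ⊢; tauto))
  · refine mul_mem (k3 a b fun s hs => ?_) m3
    have hts : t * s * t⁻¹ = s := by
      rcases hs with rfl | rfl | rfl
      exacts [h.swap _ _, h.swap _ _, by simp]
    have := hg s (subset_closure (by
      simp only [Set.mem_insert_iff, Set.mem_singleton_iff] at hs ⊢; tauto))
    rwa [mul_inv_rev, mul_assoc _ t, mul_assoc (ψ _), ← mul_assoc _ t⁻¹, hts, ← mul_assoc] at this

omit [Finite X] in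
theorem mem_of_fix (h : SpSet ψ t n) (hU : SylIn 2 U ⊤) (hm : MC U m 0 1 x y) {a : L}
    (ha : a ∈ normalizer (U : Set L)) (hx : a * x ^ (m : ℤ) = x ^ (m : ℤ) * a) : a ∈ U := by
  have hz' := hm.eq_z (h.om.mem hU) h.om.ord fun g _ => h.om.comm g
  refine H7.mem_of_pParts (p := 2) (isOfFinOrder_of_finite a) (fun j k hk =>
    (SylIn_sylowIn hU).mem_of_mem_normalizer trivial (pow_mem ha j) hk) fun j hj => ?_
  have h1 : a ^ j * x ^ (m : ℤ) = x ^ (m : ℤ) * a ^ j := (Commute.pow_left hx j).eq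
  by_cases h2 : ∃ g ∈ U, a ^ j * g * (a ^ j)⁻¹ ≠ g
  · obtain ⟨i, -, e⟩ := hm.oddAut_cases le_rfl
      (oddAut_conj (pow_mem ha j) (Nat.coprime_two_right.1 hj)) h2
    rw [mcD_odd (by simp), h1, mul_inv_cancel_right] at e
    exact absurd e.symm (hm.outer_ne _ _)
  · push Not at h2
    rcases h.cq _ _ _ (by rw [hz', ← zpow_add, two_mul]) (by rw [hz', hm.outer_odd_sq (i := 0) (by simp)])
      (hm.outer_conj_c 0) h1 (mul_inv_eq_iff_eq_mul.1 (h2 _ (hm.outer_mem 0))) with e | e <;> rw [e]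
    exacts [one_mem _, h.om.mem hU]

theorem simpleFus (h : SpSet ψ t n) (hU : SylIn 2 U ⊤) (hm : MC U m 0 1 x y) :
    SimpleFus 2 (X ⧸ center X) := by
  have hS := h.sylIn hU hm
  have hz' := hm.eq_z (h.om.mem hU) h.om.ord fun g _ => h.om.comm g
  have hzS := (h.mk_mem hU).2 (h.psi_mem_syl.2 ⟨one_mem _, h.om.mem hU⟩)
  have hn1 : QuotientGroup.mk' (center X) (ψ (n, n)) = 1 :=
    (QuotientGroup.eq_one_iff _).2 ((h.cen _).2 (Or.inr rfl))
  refine simpleFus_of_top (SylIn_sylowIn hS) (isSimple_of_crit (SylIn_sylowIn hS)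
    (fun e => h.mk_z_ne (by rwa [e] at hzS)) (fun T hTS hT hc => ?_) fun A hA _ hR g hg => ?_)
  · obtain ⟨z, hz, hz1, -, hzc⟩ := H9.exists_mem_centralizer_ne_one (hS.isPGroup.to_le hTS)
      hS.isPGroup (fun s hs => mem_normalizer_of_conj_mem fun r hr =>
        hc r hr s trivial (mul_mem (mul_mem hs (hTS hr)) (inv_mem hs))) hT
    rw [h.eq_z hU hm (hTS hz) hz1 hzc] at hz
    refine map_le_iff_le_comap.2 (h.le_of_closed hU hm hz (by rw [mem_comap, hn1]; exact one_mem _)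
      fun s hs g hg => ?_)
    rw [mem_comap, map_mul, map_mul, map_inv]
    exact hc _ hs _ trivial (by simpa only [map_mul, map_inv] using (h.mk_mem hU).2 hg)
  · let B : Subgroup L := A.comap ((QuotientGroup.mk' (center X)).comp
      (ψ.comp ((MonoidHom.id L).prod (MonoidHom.id L))))
    have hB : ∀ a, a ∈ B ↔ QuotientGroup.mk' (center X) (ψ (a, a)) ∈ A := fun a => Iff.rfl
    have hUB : U ≤ B := fun a ha => hA ((h.mk_mem hU).2 (h.psi_mem_syl.2 ⟨ha, ha⟩))
    have hNB : normalizer (U : Set L) ≤ B := fun a ha => by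
      refine H7.mem_of_pParts (p := 2) (isOfFinOrder_of_finite a) (fun j k hk => hUB
        ((SylIn_sylowIn hU).mem_of_mem_normalizer trivial (pow_mem ha j) hk)) fun j hj => ?_
      by_cases h2 : ∃ g ∈ U, a ^ j * g * (a ^ j)⁻¹ ≠ g
      swap
      · push Not at h2
        exact hUB (h.mem_of_fix hU hm (pow_mem ha j) (mul_inv_eq_iff_eq_mul.1 (h2 _ (hm.zpow_mem _))))
      obtain ⟨i, eU, e⟩ := hm.oddAut_cases le_rfl
        (oddAut_conj (pow_mem ha j) (Nat.coprime_two_right.1 hj)) h2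
      rw [mcD_odd (by simp)] at e
      have hcc : x ^ (m : ℤ) * x ^ (m : ℤ) = n := by rw [hz', ← zpow_add, two_mul]
      have huu : x ^ i * y * (x ^ i * y) = n := by rw [hz', hm.outer_odd_sq (by simp)]
      obtain ⟨α, β, w, h1, h2, h3, h4, h5, h6, h7, -⟩ := h.ext _ _ hcc huu (hm.outer_conj_c i)
      have hw : w ∈ normalizer (U : Set L) := by
        refine mem_normalizer_of_cj_le ?_
        conv_lhs => rw [eU]
        rw [mcP, mcD_odd (by simp), gen2, cj_sup, cj_zpowers, cj_zpowers, h6, h7]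
        exact sup_le (Subgroup.zpowers_le.2 (mul_mem (hm.zpow_mem _) (hm.outer_mem _)))
          (Subgroup.zpowers_le.2 (hm.zpow_mem _))
      have hwB : w ∈ B := by
        have hE : spE ψ t n (x ^ (m : ℤ)) (x ^ i * y) ≤ syl ψ t U := (closure_le _).2 (by
          rintro _ (rfl | rfl | rfl | rfl)
          exacts [h.psi_mem_syl.2 ⟨hm.zpow_mem _, hm.zpow_mem _⟩,
            h.psi_mem_syl.2 ⟨hm.outer_mem _, hm.outer_mem _⟩, t_mem_syl U,
            h.psi_mem_syl.2 ⟨one_mem _, h.om.mem hU⟩])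
        refine (hB w).2 (hR _ (map_mono hE) (fun c _ hc _ => ?_) ⟨?_, ?_⟩)
        · obtain ⟨c, rfl⟩ := QuotientGroup.mk'_surjective _ c
          refine mem_map_of_mem _ (h.mem_spE hcc huu (hm.outer_conj_c i) fun s hs => h.mk_eq.1 ?_)
          rw [map_mul, map_mul, map_inv, ← hc _ (mem_map_of_mem _ hs), mul_inv_cancel_right]
        · have k : ∀ γ, γ * γ = ψ (n, n) → γ ∈ normalizer (spE ψ t n (x ^ (m : ℤ)) (x ^ i * y) : Set X) →
              QuotientGroup.mk' (center X) γ ∈ closure (pElts 2 ⊤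
                ((spE ψ t n (x ^ (m : ℤ)) (x ^ i * y)).map (QuotientGroup.mk' (center X)))) :=
            fun γ e1 e2 => subset_closure ⟨trivial, le_normalizer_map _ (mem_map_of_mem _ e2), 1,
              by rw [pow_one, pow_two, ← map_mul, e1, hn1]⟩
          have := inv_mem (mul_mem (k α h1 h3) (k β h2 h4))
          rwa [← map_mul, ← map_inv, inv_eq_of_mul_eq_one_right h5] at this
        · refine le_normalizer_map _ (mem_map_of_mem _ (mem_normalizer_of_conj_mem fun s hs => ?_))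
          obtain ⟨b, hb, c, hc, rfl | rfl⟩ := h.mem_syl.1 hs
          · rw [← map_inv, ← map_mul, ← map_mul]
            exact h.psi_mem_syl.2 ⟨conj_mem_of_mem_normalizer hw hb, conj_mem_of_mem_normalizer hw hc⟩
          · rw [← map_inv, Prod.inv_mk, mul_assoc, mul_assoc, h.t_mul, ← mul_assoc, ← mul_assoc,
              ← map_mul, ← map_mul]
            exact mul_mem (h.psi_mem_syl.2 ⟨conj_mem_of_mem_normalizer hw hb,
              conj_mem_of_mem_normalizer hw hc⟩) (t_mem_syl U)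
      have := hUB (h.mem_of_fix hU hm (mul_mem hw (pow_mem ha j)) (by
        rw [mul_assoc, mul_inv_eq_iff_eq_mul.1 e, ← mul_assoc, mul_inv_eq_iff_eq_mul.1 h6, mul_assoc]))
      simpa using mul_mem (inv_mem hwB) this
    have key : ∀ a b, QuotientGroup.mk' (center X) (ψ (a, b)) ∈ normalizer
        ((syl ψ t U).map (QuotientGroup.mk' (center X)) : Set (X ⧸ center X)) →
        QuotientGroup.mk' (center X) (ψ (a, b)) ∈ A := fun a b hab => by
      have k : ∀ s ∈ syl ψ t U, ψ (a, b) * s * (ψ (a, b))⁻¹ ∈ syl ψ t U := fun s hs => by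
        rw [← h.mk_mem hU, map_mul, map_mul, map_inv]
        exact conj_mem_of_mem_normalizer hab ((h.mk_mem hU).2 hs)
      have k1 : b ∈ normalizer (U : Set L) := mem_normalizer_of_conj_mem fun s hs => by
        have := k _ (h.psi_mem_syl.2 ⟨one_mem _, hs⟩)
        rw [← map_inv, ← map_mul, ← map_mul] at this
        exact (h.psi_mem_syl.1 this).2
      have k2 : a * b⁻¹ ∈ U := by
        have := mul_mem (k _ (t_mem_syl U)) (t_mem_syl U)
        rw [← map_inv, Prod.inv_mk, mul_assoc _ t, h.t_mul, ← mul_assoc, mul_assoc _ t, h.tt,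
          mul_one, ← map_mul] at this
        exact (h.psi_mem_syl.1 this).1
      have := mul_mem (hA ((h.mk_mem hU).2 (h.psi_mem_syl.2 ⟨k2, one_mem _⟩))) ((hB b).1 (hNB k1))
      rw [← map_mul, ← map_mul] at this
      simpa using this
    obtain ⟨g, rfl⟩ := QuotientGroup.mk'_surjective _ g
    have htS := (h.mk_mem hU).2 (t_mem_syl (ψ := ψ) (t := t) U)
    obtain ⟨a, b, rfl | rfl⟩ := h.of_mem_normalizer hU hm hg.2
    · exact key a b hg.2
    · rw [map_mul]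
      refine mul_mem (key a b ?_) (hA htS)
      simpa using Subgroup.mul_mem _ hg.2 (Subgroup.inv_mem _ (le_normalizer htS))

end SpSet

end Cfsg.Agent.H6
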