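import Cfsg.Agent.Lib.H6.Sp4Abs

/-! The `2`-fusion system of `PSp₄(q)`: the matrices (helper6). -/

set_option autoImplicit false
set_option linter.style.haveILetI false
open Cfsg Subgroup
open scoped Pointwise commutatorElement Matrix MatrixGroups

namespace Cfsg.Agent.H6

open H2 FusionSystem

variable {F : Type*} [Field F]

/-- The Kronecker product in block form. -/
def kr (a b : Matrix (Fin 2) (Fin 2) F) : Matrix (Fin 2 ⊕ Fin 2) (Fin 2 ⊕ Fin 2) F :=
  Matrix.fromBlocks (a 0 0 • b) (a 0 1 • b) (a 1 0 • b) (a 1 1 • b)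

section kr
variable (a b c d : Matrix (Fin 2) (Fin 2) F)

theorem kr_mul : kr a b * kr c d = kr (a * c) (b * d) := by
  simp only [kr, Matrix.fromBlocks_multiply, Matrix.mul_apply, Fin.sum_univ_two, add_smul,
    smul_mul_smul_comm]

theorem kr_transpose : (kr a b)ᵀ = kr aᵀ bᵀ := by
  simp only [kr, Matrix.fromBlocks_transpose, Matrix.transpose_smul, Matrix.transpose_apply]

theorem kr_add_right : kr a (b + c) = kr a b + kr a c := by
  simp only [kr, Matrix.fromBlocks_add, smul_add]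

theorem kr_smul_left (r : F) : kr (r • a) b = r • kr a b := by
  simp only [kr, Matrix.fromBlocks_smul, Matrix.smul_apply, smul_eq_mul, smul_smul]

theorem kr_smul_right (r : F) : kr a (r • b) = r • kr a b := by
  simp only [kr, Matrix.fromBlocks_smul, smul_comm r]

theorem kr_neg_left : kr (-a) b = -kr a b := by
  rw [← neg_one_smul F a, kr_smul_left, neg_one_smul]

theorem kr_neg_right : kr a (-b) = -kr a b := by
  rw [← neg_one_smul F b, kr_smul_right, neg_one_smul]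

theorem kr_zero_right : kr a 0 = 0 := by
  simp [kr]

theorem kr_one : kr (1 : Matrix (Fin 2) (Fin 2) F) 1 = 1 := by
  simp [kr]

end kr

/-- The alternating form in dimension two. -/
def j2 : Matrix (Fin 2) (Fin 2) F := !![0, -1; 1, 0]
/-- The first idempotent. -/
def e0 : Matrix (Fin 2) (Fin 2) F := !![1, 0; 0, 0]
/-- The second idempotent. -/
def e1 : Matrix (Fin 2) (Fin 2) F := !![0, 0; 0, 1]
/-- The swap. -/
def sw2 : Matrix (Fin 2) (Fin 2) F := !![0, 1; 1, 0]
/-- A symmetric matrix interchanging the swap and the diagonal reflection. -/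
def rr2 : Matrix (Fin 2) (Fin 2) F := !![1, -1; -1, -1]

theorem J_eq_kr : Matrix.J (Fin 2) F = kr j2 1 := by simp [kr, j2, Matrix.J]

theorem mul_j2 (a : Matrix (Fin 2) (Fin 2) F) : a * j2 * aᵀ = a.det • j2 := by
  ext i j; fin_cases i <;> fin_cases j <;>
    simp [j2, Matrix.mul_apply, Fin.sum_univ_two, Matrix.det_fin_two, Matrix.vecMul,
      dotProduct] <;> ring

theorem e0_mul_e0 : (e0 : Matrix (Fin 2) (Fin 2) F) * e0 = e0 := by
  ext i j; fin_cases i <;> fin_cases j <;> simp [e0]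
theorem e1_mul_e1 : (e1 : Matrix (Fin 2) (Fin 2) F) * e1 = e1 := by
  ext i j; fin_cases i <;> fin_cases j <;> simp [e1]
theorem e0_mul_e1 : (e0 : Matrix (Fin 2) (Fin 2) F) * e1 = 0 := by
  ext i j; fin_cases i <;> fin_cases j <;> simp [e0, e1]
theorem e1_mul_e0 : (e1 : Matrix (Fin 2) (Fin 2) F) * e0 = 0 := by
  ext i j; fin_cases i <;> fin_cases j <;> simp [e0, e1]
theorem e0_add_e1 : (e0 : Matrix (Fin 2) (Fin 2) F) + e1 = 1 := by
  ext i j; fin_cases i <;> fin_cases j <;> simp [e0, e1]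
theorem e0_T : (e0 : Matrix (Fin 2) (Fin 2) F)ᵀ = e0 := by
  ext i j; fin_cases i <;> fin_cases j <;> simp [e0]
theorem e1_T : (e1 : Matrix (Fin 2) (Fin 2) F)ᵀ = e1 := by
  ext i j; fin_cases i <;> fin_cases j <;> simp [e1]

/-- The matrix of a pair. -/
def psiM (a b : Matrix (Fin 2) (Fin 2) F) : Matrix (Fin 2 ⊕ Fin 2) (Fin 2 ⊕ Fin 2) F :=
  kr a e0 + kr b e1

theorem psiM_mul (a b c d : Matrix (Fin 2) (Fin 2) F) :
    psiM a b * psiM c d = psiM (a * c) (b * d) := by
  simp only [psiM, add_mul, mul_add, kr_mul, e0_mul_e0, e1_mul_e1, e0_mul_e1, e1_mul_e0,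
    kr_zero_right, add_zero, zero_add]

theorem psiM_self (a : Matrix (Fin 2) (Fin 2) F) : psiM a a = kr a 1 := by
  rw [psiM, ← kr_add_right, e0_add_e1]

theorem psiM_transpose (a b : Matrix (Fin 2) (Fin 2) F) : (psiM a b)ᵀ = psiM aᵀ bᵀ := by
  simp only [psiM, Matrix.transpose_add, kr_transpose, e0_T, e1_T]

theorem psiM_inj {a b c d : Matrix (Fin 2) (Fin 2) F} (h : psiM a b = psiM c d) :
    a = c ∧ b = d := by
  simp only [psiM, kr, Matrix.fromBlocks_add, Matrix.fromBlocks_inj] at h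
  obtain ⟨h1, h2, h3, h4⟩ := h
  constructor <;> ext i j <;> fin_cases i <;> fin_cases j
  · simpa [e0, e1] using congrFun (congrFun h1 0) 0
  · simpa [e0, e1] using congrFun (congrFun h2 0) 0
  · simpa [e0, e1] using congrFun (congrFun h3 0) 0
  · simpa [e0, e1] using congrFun (congrFun h4 0) 0
  · simpa [e0, e1] using congrFun (congrFun h1 1) 1
  · simpa [e0, e1] using congrFun (congrFun h2 1) 1
  · simpa [e0, e1] using congrFun (congrFun h3 1) 1
  · simpa [e0, e1] using congrFun (congrFun h4 1) 1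

theorem psiM_mem_iff {a b : Matrix (Fin 2) (Fin 2) F} :
    psiM a b ∈ Matrix.symplecticGroup (Fin 2) F ↔ a.det = 1 ∧ b.det = 1 := by
  rw [SymplecticGroup.mem_iff, J_eq_kr, ← psiM_self, psiM_transpose, psiM_mul, psiM_mul, mul_j2,
    mul_j2]
  refine ⟨fun h => ?_, fun ⟨h1, h2⟩ => by rw [h1, h2, one_smul]⟩
  obtain ⟨h1, h2⟩ := psiM_inj h
  exact ⟨by simpa [j2] using congrFun (congrFun h1 1) 0, by simpa [j2] using congrFun (congrFun h2 1) 0⟩

/-- The embedding `SL₂ × SL₂ → Sp₄`. -/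
def psiSp : SL(2, F) × SL(2, F) →* Matrix.symplecticGroup (Fin 2) F where
  toFun p := ⟨psiM p.1.1 p.2.1, psiM_mem_iff.2 ⟨p.1.2, p.2.2⟩⟩
  map_one' := Subtype.ext (by
    change psiM (1 : Matrix (Fin 2) (Fin 2) F) 1 = 1
    rw [psiM_self, kr_one])
  map_mul' p q := Subtype.ext (psiM_mul _ _ _ _).symm

theorem coe_psiSp (a b : SL(2, F)) : (psiSp (a, b)).1 = psiM a.1 b.1 := rfl

theorem sw2_mul : (sw2 : Matrix (Fin 2) (Fin 2) F) * sw2 = 1 := by
  ext i j; fin_cases i <;> fin_cases j <;> simp [sw2]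

/-- The swap of the two factors. -/
def tSp : Matrix.symplecticGroup (Fin 2) F :=
  ⟨kr 1 sw2, by
    have : (sw2 : Matrix (Fin 2) (Fin 2) F)ᵀ = sw2 := by
      ext i j; fin_cases i <;> fin_cases j <;> simp [sw2]
    rw [SymplecticGroup.mem_iff, J_eq_kr, kr_transpose, kr_mul, kr_mul, this]
    simp [sw2_mul]⟩

theorem coe_tSp : (tSp : Matrix.symplecticGroup (Fin 2) F).1 = kr 1 sw2 := rfl

theorem tSp_mul (a b : SL(2, F)) : tSp * psiSp (a, b) = psiSp (b, a) * tSp := by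
  refine Subtype.ext ?_
  have k0 : (sw2 : Matrix (Fin 2) (Fin 2) F) * e0 = e1 * sw2 := by simp [sw2, e0, e1]
  have k1 : (sw2 : Matrix (Fin 2) (Fin 2) F) * e1 = e0 * sw2 := by simp [sw2, e0, e1]
  simp only [Submonoid.coe_mul, coe_tSp, coe_psiSp, psiM, mul_add, add_mul, kr_mul, one_mul,
    mul_one, k0, k1, add_comm]

theorem coe_psiSp_neg : (psiSp ((-1 : SL(2, F)), (-1 : SL(2, F)))).1 = -1 := by
  rw [coe_psiSp, psiM_self]
  simp [kr_neg_left, kr_one]

theorem coe_psiSp_z : (psiSp ((1 : SL(2, F)), (-1 : SL(2, F)))).1 = kr 1 (e0 + -e1) := by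
  rw [coe_psiSp, kr_add_right, kr_neg_right, psiM]
  simp [kr_neg_left]

theorem mem_range_psiSp (h2 : (2 : F) ≠ 0) (g : Matrix.symplecticGroup (Fin 2) F)
    (h : g * psiSp (1, -1) * g⁻¹ = psiSp (1, -1)) : g ∈ (psiSp (F := F)).range := by
  have h1 := congrArg Subtype.val (mul_inv_eq_iff_eq_mul.1 h)
  rw [Submonoid.coe_mul, Submonoid.coe_mul, coe_psiSp_z] at h1
  obtain ⟨g, hg⟩ := g
  dsimp only at h1
  have k : ∀ x : F, x = -x → x = 0 := fun x hx =>
    (mul_eq_zero.1 (show 2 * x = 0 by linear_combination hx)).resolve_left h2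
  have key : ∀ B : Matrix (Fin 2) (Fin 2) F, B * (e0 + -e1) = (e0 + -e1) * B →
      B = B 0 0 • e0 + B 1 1 • e1 := fun B hB => by
    have f1 : B 0 1 = 0 := k _ (by
      simpa [e0, e1, Matrix.mul_apply, Fin.sum_univ_two] using (congrFun (congrFun hB 0) 1).symm)
    have f2 : B 1 0 = 0 := k _ (by
      simpa [e0, e1, Matrix.mul_apply, Fin.sum_univ_two] using congrFun (congrFun hB 1) 0)
    ext i j; fin_cases i <;> fin_cases j <;> simp [e0, e1, f1, f2]
  have e : g = psiM !![g.toBlocks₁₁ 0 0, g.toBlocks₁₂ 0 0; g.toBlocks₂₁ 0 0, g.toBlocks₂₂ 0 0]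
      !![g.toBlocks₁₁ 1 1, g.toBlocks₁₂ 1 1; g.toBlocks₂₁ 1 1, g.toBlocks₂₂ 1 1] := by
    conv_lhs => rw [← Matrix.fromBlocks_toBlocks g]
    rw [← Matrix.fromBlocks_toBlocks g] at h1
    generalize g.toBlocks₁₁ = A at h1 ⊢
    generalize g.toBlocks₁₂ = B at h1 ⊢
    generalize g.toBlocks₂₁ = C at h1 ⊢
    generalize g.toBlocks₂₂ = D at h1 ⊢
    simp only [kr, Matrix.one_apply_eq, one_smul, ne_eq, zero_ne_one, not_false_eq_true,
      Matrix.one_apply_ne, zero_smul, one_ne_zero, Matrix.fromBlocks_multiply, mul_zero, add_zero,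
      zero_add, zero_mul, Matrix.fromBlocks_inj] at h1
    simp only [psiM, kr, Matrix.fromBlocks_add, Matrix.fromBlocks_inj]
    exact ⟨key _ h1.1, key _ h1.2.1, key _ h1.2.2.1, key _ h1.2.2.2⟩
  obtain ⟨ha, hb⟩ := psiM_mem_iff.1 (e ▸ hg)
  exact ⟨(⟨_, ha⟩, ⟨_, hb⟩), Subtype.ext e.symm⟩

theorem det_eq_of_sq {p : Matrix (Fin 2) (Fin 2) F} {r : F} (ht : p.adjugate = -p)
    (h : p * p = -(r • 1)) : p.det = r := by
  have := Matrix.mul_adjugate p
  rw [ht, mul_neg, h, neg_neg] at this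
  simpa using (congrFun (congrFun this 0) 0).symm

theorem exists_alpha (h2 : (2 : F) ≠ 0) {p : Matrix (Fin 2) (Fin 2) F} (ht : p.adjugate = -p)
    (h : p * p = -((2 : F) • 1)) : ∃ α : Matrix.symplecticGroup (Fin 2) F,
      α.1 = (2 : F)⁻¹ • kr p rr2 ∧ α * α = psiSp (-1, -1) ∧
      α * tSp * α⁻¹ = psiSp (1, -1) * psiSp (-1, -1) ∧
      α * psiSp (1, -1) * α⁻¹ = tSp * psiSp (-1, -1) ∧
      ∀ a b : SL(2, F), p * a.1 = -(b.1 * p) →
        α * psiSp (a, a) * α⁻¹ = psiSp (b, b) * psiSp (-1, -1) := by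
  have k0 : (rr2 : Matrix (Fin 2) (Fin 2) F)ᵀ = rr2 := by
    ext i j; fin_cases i <;> fin_cases j <;> simp [rr2]
  have k1 : (rr2 : Matrix (Fin 2) (Fin 2) F) * rr2 = (2 : F) • 1 := by
    ext i j; fin_cases i <;> fin_cases j <;> simp [rr2] <;> norm_num
  have k2 : (rr2 : Matrix (Fin 2) (Fin 2) F) * sw2 = -((e0 + -e1) * rr2) := by
    ext i j; fin_cases i <;> fin_cases j <;> simp [rr2, sw2, e0, e1]
  have k3 : (rr2 : Matrix (Fin 2) (Fin 2) F) * (e0 + -e1) = -(sw2 * rr2) := by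
    ext i j; fin_cases i <;> fin_cases j <;> simp [rr2, sw2, e0, e1]
  have k4 : (2⁻¹ * 2⁻¹ * (2 * 2) : F) = 1 := by field_simp
  refine ⟨⟨(2 : F)⁻¹ • kr p rr2, ?_⟩, rfl, Subtype.ext ?_, mul_inv_eq_iff_eq_mul.2 (Subtype.ext ?_),
    mul_inv_eq_iff_eq_mul.2 (Subtype.ext ?_),
    fun a b hab => mul_inv_eq_iff_eq_mul.2 (Subtype.ext ?_)⟩
  · rw [SymplecticGroup.mem_iff, J_eq_kr, Matrix.transpose_smul, kr_transpose, smul_mul_assoc,
      smul_mul_smul_comm, kr_mul, kr_mul, mul_j2, det_eq_of_sq ht h, mul_one, k0, k1, kr_smul_left,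
      kr_smul_right, smul_smul, smul_smul, mul_assoc, k4, one_smul]
  · rw [Submonoid.coe_mul, coe_psiSp_neg, smul_mul_smul_comm, kr_mul, h, k1, kr_neg_left,
      kr_smul_left, kr_smul_right, kr_one, smul_smul, smul_neg, smul_smul, k4, one_smul]
  · simp only [Submonoid.coe_mul, coe_psiSp_neg, coe_psiSp_z, coe_tSp, smul_mul_assoc,
      mul_smul_comm, mul_neg, neg_mul, mul_one, one_mul, kr_mul, k2, kr_neg_right]
  · simp only [Submonoid.coe_mul, coe_psiSp_neg, coe_psiSp_z, coe_tSp, smul_mul_assoc,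
      mul_smul_comm, mul_neg, neg_mul, mul_one, one_mul, kr_mul, k3, kr_neg_right]
  · simp only [Submonoid.coe_mul, coe_psiSp_neg]
    simp only [coe_psiSp, psiM_self, smul_mul_assoc,
      mul_smul_comm, mul_neg, neg_mul, mul_one, one_mul, kr_mul, hab, kr_neg_left]

theorem adjugate_sub_of {p q : Matrix (Fin 2) (Fin 2) F} (hp : p.adjugate = -p)
    (hq : q.adjugate = -q) : (p - q).adjugate = -(p - q) := by
  have key : ∀ M : Matrix (Fin 2) (Fin 2) F, M.adjugate = -M → M 1 1 = -M 0 0 := fun M e => by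
    simpa [Matrix.adjugate_fin_two] using congrFun (congrFun e 0) 0
  have k1 := key _ hp
  have k2 := key _ hq
  ext i j
  fin_cases i <;> fin_cases j <;> simp [Matrix.adjugate_fin_two, k1, k2] <;> ring

theorem eq_of_comm_q8 (h2 : (2 : F) ≠ 0) {c u a : SL(2, F)} (hc : c * c = -1)
    (hcu : u * c * u⁻¹ = c⁻¹) (h1 : a * c = c * a) (h1' : a * u = u * a) : a = 1 ∨ a = -1 := by
  have hc' : c.1 * c.1 = -1 := congrArg (fun M : SL(2, F) => M.1) hc
  have h3 : u.1 * c.1 = -(c.1 * u.1) :=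
    rep_anti Matrix.SpecialLinearGroup.coeMonoidHom hc' hcu
  have f1 : a.1 * c.1 = c.1 * a.1 := congrArg (fun M : SL(2, F) => M.1) h1
  have f2 : a.1 * u.1 = u.1 * a.1 := congrArg (fun M : SL(2, F) => M.1) h1'
  have f3 : (a.1 * c.1).trace = 0 := by
    have e : u * (a * c) * u⁻¹ = -(a * c) := by
      rw [← mul_assoc, ← h1', mul_assoc a, mul_assoc a, hcu, inv_eq_of_mul_eq_one_right
        (show c * -c = 1 by rw [mul_neg, hc, neg_neg]), mul_neg]
    have e' : u.1 * (a.1 * c.1) * (u⁻¹).1 = -(a.1 * c.1) := congrArg (fun M : SL(2, F) => M.1) e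
    have e'' : (u⁻¹).1 * u.1 = 1 := congrArg (fun M : SL(2, F) => M.1) (inv_mul_cancel u)
    have := congrArg Matrix.trace e'
    rw [Matrix.trace_mul_cycle, e'', one_mul, Matrix.trace_neg] at this
    exact (mul_eq_zero.1 (show 2 * (a.1 * c.1).trace = 0 by
      linear_combination this)).resolve_left h2
  have f4 := adjugate_eq_neg c.2 hc'
  have f5 : (a.1 * c.1).adjugate = -(a.1 * c.1) := by
    generalize a.1 * c.1 = M at f3
    rw [Matrix.trace_fin_two] at f3
    have : M 1 1 = -M 0 0 := by linear_combination f3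
    ext i j
    fin_cases i <;> fin_cases j <;> simp [Matrix.adjugate_fin_two, this]
  rw [Matrix.adjugate_mul_distrib, f4, neg_mul, neg_inj, f1] at f5
  refine sl2_eq_of_mul_self h2 (mul_eq_one_iff_inv_eq.2 (mul_left_cancel (a := c) ?_))
  exact Subtype.ext f5

theorem spSet (h2 : (2 : F) ≠ 0) [Finite F] :
    SpSet (psiSp (F := F)) tSp (-1 : SL(2, F)) := by
  have hneg : ∀ g : Matrix.symplecticGroup (Fin 2) F, g * psiSp (-1, -1) = psiSp (-1, -1) * g :=
    fun g => Subtype.ext (by simp only [Submonoid.coe_mul, coe_psiSp_neg, mul_neg, neg_mul,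
      mul_one, one_mul])
  have hinj : Function.Injective (psiSp (F := F)) := fun p q e => by
    obtain ⟨h1, h2⟩ := psiM_inj (congrArg Subtype.val e)
    exact Prod.ext (Subtype.ext h1) (Subtype.ext h2)
  refine ⟨hinj, Subtype.ext ?_, fun a b => mul_inv_eq_iff_eq_mul.2 (tSp_mul a b), ?_, om_SL2 h2,
    fun g => ⟨fun hg => ?_, ?_⟩, mem_range_psiSp h2, fun c u a hc _ h h1 h1' =>
      eq_of_comm_q8 h2 hc h h1 h1', fun c u hc hu h => ?_⟩
  · rw [Submonoid.coe_mul, coe_tSp, kr_mul, one_mul, sw2_mul, kr_one]; rfl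
  · rintro ⟨⟨a, b⟩, e⟩
    have := congrFun (congrFun (congrArg Subtype.val e) (Sum.inl 0)) (Sum.inl 1)
    simp [coe_psiSp, coe_tSp, psiM, kr, e0, e1, sw2] at this
  · rw [mem_center_iff] at hg
    obtain ⟨⟨a, b⟩, rfl⟩ := mem_range_psiSp h2 g (by rw [← hg, mul_inv_cancel_right])
    have e := hg tSp
    rw [tSp_mul, mul_left_inj] at e
    obtain rfl : b = a := (Prod.ext_iff.1 (hinj e)).1
    have : b ∈ center SL(2, F) := mem_center_iff.2 fun s => by
      have := hg (psiSp (s, s))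
      rw [← map_mul, ← map_mul] at this
      exact (Prod.ext_iff.1 (hinj this)).1
    rcases sl2_mem_center_iff.1 this with rfl | rfl
    exacts [Or.inl (map_one _), Or.inr rfl]
  · rintro (rfl | rfl)
    exacts [one_mem _, mem_center_iff.2 hneg]
  · have hc' : c.1 * c.1 = -1 := congrArg (fun M : SL(2, F) => M.1) hc
    have hu' : u.1 * u.1 = -1 := congrArg (fun M : SL(2, F) => M.1) hu
    have h3 : u.1 * c.1 = -(c.1 * u.1) := rep_anti Matrix.SpecialLinearGroup.coeMonoidHom hc' h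
    have k1 : c.1 * (c.1 * u.1) = -u.1 := by rw [← mul_assoc, hc']; simp
    have k2 : u.1 * (c.1 * u.1) = c.1 := by rw [← mul_assoc, h3, neg_mul, mul_assoc, hu']; simp
    have k3 : c.1 * u.1 * c.1 = u.1 := by rw [mul_assoc, h3, mul_neg, k1, neg_neg]
    have k4 : c.1 * u.1 * u.1 = -c.1 := by rw [mul_assoc, hu']; simp
    have k5 : c.1 * u.1 * (c.1 * u.1) = -1 := by rw [← mul_assoc, k3, hu']
    have a1 := adjugate_eq_neg c.2 hc'
    have a2 := adjugate_eq_neg u.2 hu'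
    have a3 := adjugate_eq_neg (c * u).2 k5
    obtain ⟨α, e1, e2, e3, e4, e5⟩ := exists_alpha h2 (adjugate_sub_of a1 a2) (by
      simp only [mul_sub, sub_mul, hc', hu', h3, two_smul]; abel)
    obtain ⟨β, f1, f2, f3, f4, f5⟩ := exists_alpha h2 (adjugate_sub_of a3 a2) (by
      simp only [Matrix.SpecialLinearGroup.coe_mul, mul_sub, sub_mul, hu', k2, k4, k5, two_smul]
      abel)
    have m1 : psiSp (c, c) ∈ spE psiSp tSp (-1) c u := subset_closure (by simp)
    have m2 : psiSp (u, u) ∈ spE psiSp tSp (-1) c u := subset_closure (by simp)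
    have m3 : tSp ∈ spE psiSp tSp (-1) c u := subset_closure (by simp)
    have m4 : psiSp (1, -1) ∈ spE psiSp tSp (-1) c u := subset_closure (by simp)
    have m5 : psiSp (-1, -1) ∈ spE psiSp tSp (-1) c u := by
      simpa only [← map_mul, Prod.mk_mul_mk, hc] using mul_mem m1 m1
    have m6 : psiSp (c * u, c * u) ∈ spE psiSp tSp (-1) c u := by
      simpa only [← map_mul, Prod.mk_mul_mk] using mul_mem m1 m2
    have hN : ∀ γ : Matrix.symplecticGroup (Fin 2) F,
        (∀ s ∈ ({psiSp (c, c), psiSp (u, u), tSp, psiSp (1, -1)} : Set _),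
          γ * s * γ⁻¹ ∈ spE psiSp tSp (-1) c u) →
        γ ∈ normalizer (spE psiSp tSp (-1) c u : Set _) := fun γ hγ => by
      refine mem_normalizer_of_cj_le ?_
      rw [cj, MonoidHom.map_closure, closure_le]
      rintro _ ⟨s, hs, rfl⟩
      exact hγ s hs
    refine ⟨α, β, ⟨_, det_omM h2 c.2 u.2 hc' hu' h3⟩, e2, f2, hN _ ?_, hN _ ?_, Subtype.ext ?_,
      mul_inv_eq_iff_eq_mul.2 (Subtype.ext (omM_conj hc' hu')),
      mul_inv_eq_iff_eq_mul.2 (Subtype.ext ?_), e4⟩
    · rintro _ (rfl | rfl | rfl | rfl)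
      · rw [e5 c u (by simp only [mul_sub, sub_mul, hc', hu', h3]; abel)]; exact mul_mem m2 m5
      · rw [e5 u c (by simp only [mul_sub, sub_mul, hc', hu', h3]; abel)]; exact mul_mem m1 m5
      · rw [e3]; exact mul_mem m4 m5
      · rw [e4]; exact mul_mem m3 m5
    · rintro _ (rfl | rfl | rfl | rfl)
      · rw [f5 c c (by
          simp only [Matrix.SpecialLinearGroup.coe_mul, mul_sub, sub_mul, h3, k1, k3]; abel)]
        exact mul_mem m1 m5
      · rw [f5 u (c * u) (by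
          simp only [Matrix.SpecialLinearGroup.coe_mul, mul_sub, sub_mul, hu', k4, k5]; abel)]
        exact mul_mem m6 m5
      · rw [f3]; exact mul_mem m4 m5
      · rw [f4]; exact mul_mem m3 m5
    · have k6 : (rr2 : Matrix (Fin 2) (Fin 2) F) * rr2 = (2 : F) • 1 := by
        ext i j; fin_cases i <;> fin_cases j <;> simp [rr2] <;> norm_num
      have k7 : (c.1 - u.1) * ((c * u).1 - u.1) = (2 : F) • omM' c.1 u.1 := by
        rw [omM', smul_smul, mul_inv_cancel₀ h2, one_smul]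
        simp only [Matrix.SpecialLinearGroup.coe_mul, mul_sub, sub_mul, hu', k1, k2]
        abel
      change α.1 * β.1 * psiM (omM c.1 u.1) (omM c.1 u.1) = 1
      rw [e1, f1, psiM_self, smul_mul_smul_comm,
        kr_mul, k6, k7, kr_smul_left, kr_smul_right, smul_smul, smul_smul,
        show (2⁻¹ * 2⁻¹ * 2 * 2 : F) = 1 by field_simp, one_smul, kr_mul, mul_one,
        mul_eq_one_comm.1 (omM_mul h2 hc' hu' h3), kr_one]
    · change omM c.1 u.1 * c.1 = c.1 * u.1 * omM c.1 u.1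
      rw [omM, smul_mul_assoc, mul_smul_comm]
      congr 1
      simp only [mul_add, add_mul, mul_neg, neg_mul, mul_one, one_mul, hc', h3, k3, k4, k5]
      abel

theorem simpleFus_PSp4 [Fintype F] (hF : Fintype.card F % 2 = 1) : SimpleFus 2 (PSp 2 F) := by
  obtain ⟨U, k, x, y, hU, hm⟩ := exists_mc_SL2 hF
  exact (spSet (two_ne_zero_of_odd_card hF)).simpleFus hU hm

end Cfsg.Agent.H6
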