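import Cfsg.Agent.Lib.H6.Real
import Cfsg.Agent.Lib.H9.Metacyclic

/-! Supersoluble fusion systems over metacyclic groups (helper6). -/

set_option autoImplicit false
set_option linter.style.haveILetI false
open Cfsg Subgroup
open scoped Pointwise commutatorElement Matrix MatrixGroups

namespace Cfsg.Agent.H6

open H2 FusionSystem

section chain
variable {Ω : Type*} [Group Ω] {S : Subgroup Ω} {F : FusionSystem S}

/-- A chain of strongly closed subgroups with cyclic steps up to `T`. -/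
def SChain (F : FusionSystem S) (T : Subgroup Ω) : Prop :=
  ∃ (m : ℕ) (c : Fin (m + 1) → Subgroup Ω), c 0 = ⊥ ∧ c (Fin.last m) = T ∧
    (∀ i : Fin (m + 1), F.StronglyClosed (c i)) ∧
    ∀ i : Fin m, c i.castSucc ≤ c i.succ ∧ ∃ x ∈ S, c i.succ = c i.castSucc ⊔ zpowers x

theorem sChain_bot (F : FusionSystem S) : SChain F ⊥ :=
  ⟨0, fun _ => ⊥, rfl, rfl, fun _ => F.stronglyClosed_bot, fun i => i.elim0⟩

theorem SChain.step {T : Subgroup Ω} (h : SChain F T) {x : Ω} (hx : x ∈ S)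
    (hT : F.StronglyClosed (T ⊔ zpowers x)) : SChain F (T ⊔ zpowers x) := by
  obtain ⟨m, c, h0, h1, h2, h3⟩ := h
  refine ⟨m + 1, Fin.snoc c (T ⊔ zpowers x), ?_, Fin.snoc_last _ _, fun i => ?_, fun i => ?_⟩
  · rw [← h0, ← Fin.castSucc_zero, Fin.snoc_castSucc]
  · refine Fin.lastCases ?_ (fun j => ?_) i
    · rwa [Fin.snoc_last]
    · rw [Fin.snoc_castSucc]; exact h2 j
  · refine Fin.lastCases ?_ (fun j => ?_) i
    · rw [Fin.succ_last, Fin.snoc_last, Fin.snoc_castSucc, h1]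
      exact ⟨le_sup_left, x, hx, rfl⟩
    · rw [Fin.succ_castSucc, Fin.snoc_castSucc, Fin.snoc_castSucc]
      exact h3 j

theorem SChain.exists_step {T : Subgroup Ω} (h : SChain F T) {Z : Subgroup Ω} (hZ : ¬ T ≤ Z) :
    ∃ R g, g ∈ S ∧ F.StronglyClosed R ∧ R ≤ Z ⊔ zpowers g ∧ ¬ R ≤ Z := by
  obtain ⟨m, c, h0, h1, h2, h3⟩ := h
  by_contra hc
  push Not at hc
  have : ∀ i, c i ≤ Z := fun i => by
    induction i using Fin.induction with
    | zero => rw [h0]; exact bot_le
    | succ j ih =>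
      obtain ⟨-, x, hx, e⟩ := h3 j
      exact hc _ x hx (h2 _) (e ▸ sup_le_sup_right ih _)
  exact hZ (h1 ▸ this _)

end chain

section pw
variable {G : Type*} [Group G] (p : ℕ)

/-- Powers modulo the derived subgroup. -/
def pwHom (i : ℕ) : G →* Abelianization G := (powMonoidHom (p ^ i)).comp Abelianization.of

theorem pwHom_apply (i : ℕ) (g : G) : pwHom p i g = Abelianization.of (g ^ p ^ i) := by
  rw [map_pow]; rfl

/-- The subgroup generated by the derived subgroup and the `p ^ i`-th powers in `X`. -/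
def pw (i : ℕ) (X : Subgroup G) : Subgroup G := (X.map (pwHom p i)).comap Abelianization.of

theorem of_surj : Function.Surjective (Abelianization.of : G →* Abelianization G) :=
  QuotientGroup.mk_surjective

theorem pw_sup (i : ℕ) (X : Subgroup G) (a : G) :
    pw p i (X ⊔ zpowers a) = pw p i X ⊔ zpowers (a ^ p ^ i) := by
  rw [pw, Subgroup.map_sup, MonoidHom.map_zpowers, pwHom_apply, ← MonoidHom.map_zpowers,
    ← comap_sup_eq _ _ _ of_surj, comap_map_eq, sup_comm (zpowers _), ← sup_assoc,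
    sup_eq_left.2 (ker_le_comap _ _)]
  rfl

theorem pw_Phi (i : ℕ) : pw p i (H9.Phi p (⊤ : Subgroup G)) = pw p (i + 1) ⊤ := by
  have key : ∀ x : G, pwHom p i (x ^ p) = pwHom p (i + 1) x := fun x => by
    rw [pwHom_apply, pwHom_apply, ← pow_mul, pow_succ']
  unfold pw
  congr 1
  refine le_antisymm (map_le_iff_le_comap.2 (H9.Phi_le_iff.2 ⟨fun x _ => ⟨x, trivial, (key x).symm⟩,
    fun x _ y _ => ?_⟩)) ?_
  · rw [mem_comap, map_commutatorElement, commutatorElement_eq_one_iff_mul_comm.2 (mul_comm _ _)]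
    exact one_mem _
  · rintro _ ⟨x, -, rfl⟩
    exact ⟨_, H9.pow_mem_Phi (mem_top x), key x⟩

theorem pw_zero_top : pw p 0 (⊤ : Subgroup G) = ⊤ :=
  eq_top_iff.2 fun g _ => ⟨g, trivial, by rw [pwHom_apply, pow_zero, pow_one]⟩

theorem pw_of_exp {n : ℕ} (h : ∀ g : G, g ^ p ^ n = 1) : pw p n (⊤ : Subgroup G) = commutator G := by
  rw [← Abelianization.ker_of, ← MonoidHom.comap_bot, pw]
  congr 1
  rw [eq_bot_iff]
  rintro _ ⟨x, -, rfl⟩
  rw [pwHom_apply, h, map_one]
  exact one_mem _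

theorem pw_inv {B : Subgroup (MulAut G)} {X : Subgroup G} (h : H9.AInv B X) (i : ℕ) :
    H9.AInv B (pw p i X) := by
  rintro α hα g ⟨x, hx, e⟩
  refine ⟨α x, h α hα x hx, ?_⟩
  have := congrArg (Abelianization.map α.toMonoidHom) e
  rw [pwHom_apply, Abelianization.map_of, Abelianization.map_of, map_pow] at this
  rw [pwHom_apply]
  exact this

end pw

theorem exists_eq_sup_of_relIndex_dvd {G : Type*} [Group G] {p : ℕ} (hp : p.Prime) {K L : Subgroup G}
    (hKL : K ≤ L) (h : K.relIndex L ∣ p) : ∃ a, L = K ⊔ zpowers a := by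
  rcases (Nat.dvd_prime hp).1 h with h | h
  · exact ⟨1, by rw [zpowers_one_eq_bot, sup_bot_eq]; exact le_antisymm (relIndex_eq_one.1 h) hKL⟩
  · obtain ⟨a, ha, ha'⟩ := SetLike.not_le_iff_exists.1 (show ¬ L ≤ K from fun e =>
      hp.one_lt.ne' (h.symm.trans (relIndex_eq_one.2 e)))
    exact ⟨a, (H9.sup_zpowers_eq_of_relIndex_prime hp h hKL ha ha').symm⟩

section main
variable {Ω : Type*} [Group Ω] {S : Subgroup Ω} [Finite S] {F : FusionSystem S} {p : ℕ}
  [hp : Fact p.Prime]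

theorem sChain_of_normal (hS : IsPGroup p S) (hm : IsMetacyclic S) (hn : F.IsNormal S)
    {M : Subgroup S} (h1 : H9.AInv (F.autGroup S) M) (h2 : H9.Phi p ⊤ ≤ M)
    (h3 : M.relIndex ⊤ ∣ p) (h4 : (H9.Phi p ⊤).relIndex M ∣ p) : SChain F S := by
  have hsc : ∀ X : Subgroup S, H9.AInv (F.autGroup S) X → F.StronglyClosed (X.map S.subtype) :=
    fun X hX => (hn.of_invariant (map_subtype_le X) fun g hg => by
      rintro _ ⟨x, hx, rfl⟩
      obtain ⟨α, hα, e⟩ := hg.exists_aut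
      exact ⟨_, hX _ hα x hx, (equivFun_of_mem α x.2).symm.trans (e x x.2)⟩).stronglyClosed
  have hstep : ∀ (X Y : Subgroup S) (a : S), SChain F (X.map S.subtype) →
      H9.AInv (F.autGroup S) Y → Y = X ⊔ zpowers a → SChain F (Y.map S.subtype) := by
    intro X Y a hX hY e
    have := hsc Y hY
    rw [e, Subgroup.map_sup, MonoidHom.map_zpowers] at this ⊢
    exact hX.step a.2 this
  obtain ⟨a, ha⟩ := exists_eq_sup_of_relIndex_dvd hp.out le_top h3
  obtain ⟨b, hb⟩ := exists_eq_sup_of_relIndex_dvd hp.out h2 h4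
  have key : ∀ i, SChain F ((pw p i ⊤).map S.subtype) → SChain F S := fun i => by
    induction i with
    | zero => rw [pw_zero_top, ← MonoidHom.range_eq_map, range_subtype]; exact id
    | succ i ih =>
      refine fun h => ih (hstep (pw p i M) _ (a ^ p ^ i) (hstep _ _ (b ^ p ^ i) h (pw_inv p h1 i) ?_)
        (pw_inv p (H9.AInv.top _) i) (by rw [← pw_sup, ← ha]))
      rw [← pw_Phi, ← pw_sup, ← hb]
  obtain ⟨n, hn'⟩ := IsPGroup.iff_card.1 hS
  have hexp : ∀ g : S, g ^ p ^ n = 1 := fun g => hn' ▸ pow_card_eq_one'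
  obtain ⟨u, v, huv⟩ := H9.exists_metaGen_top hm
  haveI : IsCyclic (commutator S) := isCyclic_of_le huv.commutator_le
  obtain ⟨⟨c, hc⟩, hc'⟩ := IsCyclic.exists_generator (α := commutator S)
  refine key n (hstep ⊥ _ c (by rw [Subgroup.map_bot]; exact sChain_bot F)
    (pw_inv p (H9.AInv.top _) n) ?_)
  rw [pw_of_exp p hexp, bot_sup_eq]
  refine le_antisymm (fun g hg => ?_) (Subgroup.zpowers_le.2 hc)
  obtain ⟨k, hk⟩ := hc' ⟨g, hg⟩
  exact ⟨k, congrArg Subtype.val hk⟩

/-- The fusion system of the semidirect product with an automorphism of coprime order. -/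
theorem exists_system_of_aut (hS : IsPGroup p S) (σ : MulAut S) (hσ : (orderOf σ).Coprime p) :
    ∃ F : FusionSystem S, F.IsSaturated p ∧ ∀ x : S, F.IsConjElt x (σ x) := by
  let G := SemidirectProduct S (zpowers σ) (zpowers σ).subtype
  haveI : Finite G := Finite.of_equiv _ SemidirectProduct.equivProd.symm
  let ι : S →* G := SemidirectProduct.inl
  have hι : Function.Injective ι := SemidirectProduct.inl_injective
  have hU : H7.SylowIn p ι.range ⊤ := by
    refine H7.sylowIn_of_not_dvd_relIndex le_top (hS.of_surjective _ ι.rangeRestrict_surjective) ?_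
    rw [relIndex_top_right, SemidirectProduct.range_inl_eq_ker_rightHom, index_ker,
      MonoidHom.range_eq_top.2 SemidirectProduct.rightHom_surjective, card_top, Nat.card_zpowers]
    exact (Nat.Prime.coprime_iff_not_dvd hp.out).1 hσ.symm
  obtain ⟨s, hs⟩ := exists_grpIso_of_injective hι
  obtain ⟨F, hF⟩ := (groupFusionSystem ι.range).exists_isoVia hs.symm
  refine ⟨F, hF.isSaturated (groupFusionSystem_isSaturated' hU), fun x => ?_⟩
  rw [← hF.symm.isConjElt_iff x.2 (σ x).2, homFun_of_mem _ x.2, homFun_of_mem _ (σ x).2,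
    groupFusionSystem_isConjElt_iff]
  refine ⟨⟨_, rfl⟩, ⟨_, rfl⟩, SemidirectProduct.inr ⟨σ, mem_zpowers σ⟩, ?_⟩
  rw [← map_inv]
  exact (SemidirectProduct.inl_aut (φ := (zpowers σ).subtype) ⟨σ, mem_zpowers σ⟩ x).symm

end main

/-- Units of the endomorphism ring act on the multiplicative version. -/
def endAut (A : Type*) [AddCommGroup A] : (Module.End ℤ A)ˣ →* MulAut (Multiplicative A) where
  toFun u :=
    { toFun := fun a => Multiplicative.ofAdd (u.val a.toAdd)
      invFun := fun a => Multiplicative.ofAdd (u.inv a.toAdd)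
      left_inv := fun a => by
        change Multiplicative.ofAdd ((u.inv * u.val) a.toAdd) = a
        rw [u.inv_val]; rfl
      right_inv := fun a => by
        change Multiplicative.ofAdd ((u.val * u.inv) a.toAdd) = a
        rw [u.val_inv]; rfl
      map_mul' := fun a b => by rw [toAdd_mul, map_add, ofAdd_add] }
  map_one' := rfl
  map_mul' _ _ := rfl

theorem exists_no_root (p : ℕ) [hp : Fact p.Prime] : ∃ b : ℤ, ∀ j : ℤ, ¬ (p : ℤ) ∣ j * j - j - b := by
  have h1 : ¬ Function.Surjective fun x : ZMod p => x * x - x := fun h =>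
    zero_ne_one (Finite.injective_iff_surjective.2 h (a₁ := 0) (a₂ := 1) (by simp))
  obtain ⟨b, hb⟩ := not_forall.1 h1
  obtain ⟨b, rfl⟩ := ZMod.intCast_surjective b
  refine ⟨b, fun j hj => hb ⟨j, ?_⟩⟩
  have := (ZMod.intCast_zmod_eq_zero_iff_dvd _ p).2 hj
  push_cast at this
  exact sub_eq_zero.1 this

theorem exists_irred_aut (p : ℕ) [hp : Fact p.Prime] (n : ℕ) :
    ∃ σ : MulAut (Multiplicative (ZMod (p ^ n) × ZMod (p ^ n))), (orderOf σ).Coprime p ∧
      ∀ g, g ≠ 1 → g ^ p = 1 → σ g ∉ zpowers g := by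
  haveI : NeZero (p ^ n) := ⟨pow_ne_zero _ hp.out.ne_zero⟩
  obtain ⟨b, hb⟩ := exists_no_root p
  let A := ZMod (p ^ n) × ZMod (p ^ n)
  let T : Module.End ℤ A := (AddMonoidHom.mk' (fun a : A => ((b • a.2, a.1 + a.2) : A))
    fun a c => Prod.ext (smul_add b a.2 c.2) (add_add_add_comm a.1 c.1 a.2 c.2)).toIntLinearMap
  have hT : T * T = T + (b : Module.End ℤ A) := by
    refine LinearMap.ext fun a => Prod.ext ?_ ?_
    · change b • (a.1 + a.2) = b • a.2 + b • a.1
      rw [smul_add, add_comm]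
    · change b • a.2 + (a.1 + a.2) = a.1 + a.2 + b • a.2
      rw [add_comm]
  have hb0 : ¬ (p : ℤ) ∣ b := fun h => hb 0 (by simpa using h)
  have hinj : Function.Injective T := by
    refine (injective_iff_map_eq_zero _).2 fun a ha => ?_
    have h1 : b • a.2 = 0 := congrArg Prod.fst ha
    have h2 : a.1 + a.2 = 0 := congrArg Prod.snd ha
    have hu : IsUnit (b : ZMod (p ^ n)) := by
      rw [ZMod.coe_int_isUnit_iff_isCoprime]
      push_cast
      exact (((Nat.prime_iff_prime_int.1 hp.out).coprime_iff_not_dvd.2 hb0)).pow_left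
    rw [zsmul_eq_mul, hu.mul_right_eq_zero] at h1
    rw [h1, add_zero] at h2
    exact Prod.ext h2 h1
  obtain ⟨τ, hτ⟩ : IsUnit T := (Module.End.isUnit_iff T).2 (Finite.injective_iff_bijective.1 hinj)
  obtain ⟨k, hk⟩ := H7.exists_pow_orderOf_coprime (p := p) (isOfFinOrder_of_finite (endAut A τ))
  refine ⟨_, hk, fun g hg1 hgp ⟨j, hj⟩ => hb j ?_⟩
  have hj' : (T ^ p ^ k) g.toAdd = j • g.toAdd := by
    rw [← map_pow] at hj
    rw [← hτ, ← Units.val_pow_eq_pow_val]
    exact (congrArg Multiplicative.toAdd hj).symm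
  have hgp' : (p : ℤ) • g.toAdd = 0 := by
    rw [natCast_zsmul]; exact congrArg Multiplicative.toAdd hgp
  obtain ⟨r, hr⟩ := (Int.cast_commute b T).symm.exists_add_pow_prime_pow_eq hp.out k
  rw [← hT, (Commute.refl T).mul_pow] at hr
  have h1 := congrArg (fun f : Module.End ℤ A => f g.toAdd) hr
  have h2 : ((p : Module.End ℤ A) * T * b * r) g.toAdd = 0 := by
    rw [mul_assoc, mul_assoc, Module.End.mul_apply, Module.End.natCast_apply, ← map_nsmul,
      ← natCast_zsmul, hgp', map_zero]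
  simp only [Module.End.mul_apply (T ^ p ^ k), LinearMap.add_apply, h2, add_zero, hj', map_zsmul,
    ← Int.cast_pow, Module.End.intCast_apply] at h1
  have h3 : (j * j - j - b ^ p ^ k) • g.toAdd = 0 := by
    rw [sub_smul, sub_smul, mul_smul, h1]; abel
  have h4 : (p : ℤ) ∣ j * j - j - b ^ p ^ k :=
    (H9.zpow_eq_one_iff_dvd_of_prime hg1 hgp).1 (congrArg Multiplicative.ofAdd h3)
  have h5 : (p : ℤ) ∣ b ^ p ^ k - b := by
    rw [← ZMod.intCast_zmod_eq_zero_iff_dvd]
    push_cast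
    rw [ZMod.pow_card_pow, sub_self]
  simpa using h4.add h5

section counter
variable {Ω : Type*} [Group Ω] {S : Subgroup Ω} [Finite S]

theorem exists_not_sChain_homo {p : ℕ} [hp : Fact p.Prime] (hS : IsPGroup p S) {n : ℕ} (hn : 0 < n)
    (e : S ≃* Multiplicative (ZMod (p ^ n)) × Multiplicative (ZMod (p ^ n))) :
    ∃ F : FusionSystem S, F.IsSaturated p ∧ ¬ SChain F S := by
  obtain ⟨σ, h1, h2⟩ := exists_irred_aut p n
  let e' := e.trans (MulEquiv.prodMultiplicative _ _).symm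
  obtain ⟨F, hF, h3⟩ := exists_system_of_aut hS (MulAut.congr e'.symm σ)
    (by rwa [MulEquiv.orderOf_eq])
  refine ⟨F, hF, fun h => ?_⟩
  obtain ⟨R, g, hg, hR, h4, h5⟩ := h.exists_step (Z := ⊥) fun hle => by
    haveI : Fact (1 < p ^ n) := ⟨Nat.one_lt_pow hn.ne' hp.out.one_lt⟩
    obtain ⟨a, ha⟩ := exists_ne (1 : Multiplicative (ZMod (p ^ n)) × Multiplicative (ZMod (p ^ n)))
    exact ha (by rw [← e.apply_symm_apply a, show e.symm a = 1 from Subtype.ext (hle (e.symm a).2),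
      map_one])
  rw [bot_sup_eq] at h4
  haveI : IsCyclic R := isCyclic_of_le h4
  obtain ⟨⟨r, hr⟩, hr'⟩ := IsCyclic.exists_generator (α := R)
  have hr1 : r ∉ (⊥ : Subgroup Ω) := fun h => h5 fun a ha => by
    obtain ⟨k, hk⟩ := hr' ⟨a, ha⟩
    rw [← show r ^ k = a from congrArg Subtype.val hk]
    exact Subgroup.zpow_mem _ h k
  let r' : S := ⟨r, hR.le hr⟩
  obtain ⟨k, hk⟩ := hr' ⟨_, (stronglyClosed_iff_isConjElt.1 hR).2 r hr _ (h3 r')⟩
  have h6 : r' ^ k = MulAut.congr e'.symm σ r' :=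
    Subtype.ext (congrArg (Subtype.val : R → Ω) hk :)
  have h7 : σ (e' r') = e' r' ^ k := by rw [← map_zpow, h6]; simp
  obtain ⟨l, hl⟩ := hS r'
  obtain ⟨j, h8, h9⟩ := H9.exists_pow_not_mem_pow_succ_mem (p := p) (K := ⊥) (g := e' r')
    (fun h => hr1 (congrArg Subtype.val ((map_eq_one_iff _ e'.injective).1 h))) (k := l)
    (by rw [← map_pow, hl, map_one]; exact one_mem _)
  exact h2 _ h8 h9 ⟨k, by simp only; rw [map_pow, h7, ← zpow_natCast, ← zpow_natCast, zpow_comm]⟩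

omit [Finite S] in
theorem MC.not_le_sup {m : ℕ} {a b : ℤ} {x y : Ω} (h : MC S m a b x y) {g : Ω} (hg : g ∈ S) :
    ¬ S ≤ zpowers (x ^ (2 * m : ℤ)) ⊔ zpowers g := fun hle => by
  have hz : ∀ s ∈ S, zpowers (x ^ (2 * m : ℤ)) ≤ centralizer {s} := fun s hs =>
    Subgroup.zpowers_le.2 (mem_centralizer_singleton_iff.2 (h.z_comm hs).symm)
  have h1 : ∀ s ∈ S, s * g = g * s := fun s hs => mem_centralizer_singleton_iff.1
    ((sup_le (hz g hg) (Subgroup.zpowers_le.2 (mem_centralizer_singleton_iff.2 rfl))) (hle hs))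
  have h2 : x * y = y * x := mem_centralizer_singleton_iff.1
    ((sup_le (hz y h.y_mem) (Subgroup.zpowers_le.2
      (mem_centralizer_singleton_iff.2 (h1 y h.y_mem).symm))) (hle h.x_mem))
  have := (h.commute_outer_iff 0 1).1 (by simpa using h2.symm)
  have h3 := Int.le_of_dvd one_pos this
  have := h.pos
  omega

omit [Finite S] in
theorem exists_act_of_model {G : Type*} [Group G] [Finite G] {m : ℕ} {a b : ℤ} {H : Subgroup G}
    (hM : Model m a b True True H) {x y : Ω} (h : MC S m a b x y) :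
    ∃ F : FusionSystem S, F.IsSaturated 2 ∧ ∀ i, Act F x y i := by
  obtain ⟨U, x', y', hU, h', e0, e1⟩ := hM
  obtain ⟨t, s, h1, h2, h3⟩ := h.exists_grpIso h'
  obtain ⟨F, hF⟩ := (fusionSystemOfSubgroup H U hU.le).exists_isoVia h1.symm
  have key : ∀ i, GAct H x' y' i → Act F x y i := fun i hi => by
    obtain ⟨k, hk⟩ := (act_sub hU.le h'.x_mem h'.y_mem).2 hi
    exact ⟨k, by rwa [← hF.symm.isConjElt_iff (h.outer_mem i) (h.zpow_mem k), h2, h3]⟩
  exact ⟨F, hF.isSaturated (fusionSystemOfSubgroup_isSaturated (SylIn_sylowIn hU)),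
    h.act_all (key 0 (e0.2 trivial)) (key 1 (e1.2 trivial))⟩

omit [Finite S] in
theorem MC.not_sChain {m : ℕ} {a : ℤ} {x y : Ω} (h : MC S m a 0 x y) {F : FusionSystem S}
    (hi : ∀ i, Act F x y i) : ¬ SChain F S := fun hc => by
  obtain ⟨R, g, hg, hR, h4, h5⟩ := hc.exists_step (Z := ⊥) fun e => h.ne_bot (eq_bot_iff.2 e)
  rcases h.stronglyClosed_cases hi hR with rfl | rfl
  · exact h5 le_rfl
  · exact h.not_le_sup hg (h4.trans (sup_le_sup_right bot_le _))

theorem MC.not_sChain_q {m : ℕ} {x y : Ω} (h : MC S m 0 1 x y) {F : FusionSystem S}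
    (hi : ∀ i, Act F x y i) : ¬ SChain F S := fun hc => by
  obtain ⟨R, g, hg, hR, h4, h5⟩ := hc.exists_step (Z := zpowers (x ^ (2 * m : ℤ)))
    fun e => h.not_le_sup h.x_mem (e.trans le_sup_left)
  obtain ⟨r, hr, hr'⟩ := SetLike.not_le_iff_exists.1 h5
  have hc : x ^ (m : ℤ) ∈ R := by
    obtain ⟨i, rfl | rfl⟩ := (h.mem_iff r).1 (hR.le hr)
    · obtain ⟨k, hk⟩ := h.pow
      rw [h.zpow_mem_iff ⟨2, by ring⟩] at hr'
      obtain ⟨d, hd⟩ := exists_zpow_mem_iff_dvd R x
      have h1 : (d : ℤ) ∣ 4 * m := (hd _).1 (by rw [h.zpow_eq_one_iff.2 dvd_rfl]; exact one_mem _)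
      have h2 : d ∣ 2 ^ (k + 2) := by
        rw [← Int.natCast_dvd_natCast]
        exact h1.trans (by rw [hk]; push_cast; exact Dvd.intro 1 (by ring))
      obtain ⟨l, -, rfl⟩ := (Nat.dvd_prime_pow Nat.prime_two).1 h2
      rw [hd, hk, Int.natCast_dvd_natCast, Nat.pow_dvd_pow_iff_le_right one_lt_two]
      by_contra hl
      refine hr' (Dvd.dvd.trans ?_ ((hd _).1 hr))
      rw [hk]
      push_cast
      rw [← pow_succ']
      exact pow_dvd_pow _ (by omega)
    · obtain ⟨k, hk⟩ := hi i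
      have h1 := (stronglyClosed_iff_isConjElt.1 hR).2 _ hr _ hk
      rcases h.inner_four (zpow_mem_zpowers _ k) ((isConjElt_orderOf hk).trans
        (h.orderOf_outer_odd (by simp))) with e | e <;> rw [e] at h1
      exacts [h1, by simpa using h1]
  have h0 := fun i => h.outer_mem_of_act hR (hi i) (by rwa [mcD_odd (by simp)])
  refine h.not_le_sup hg ((h.le_of_mem ?_ (by simpa using h0 0)).trans h4)
  simpa using mul_mem (h0 1) (inv_mem (h0 0))

theorem exists_not_sChain_two (hS : IsPGroup 2 S)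
    (h : (∃ n : ℕ, 2 ≤ n ∧ Nonempty (S ≃* DihedralGroup n)) ∨ IsQuasiDihedral S ∨
      ∃ n : ℕ, 2 ≤ n ∧ Nonempty (S ≃* QuaternionGroup n)) :
    ∃ F : FusionSystem S, F.IsSaturated 2 ∧ ¬ SChain F S := by
  rcases h with ⟨n, hn, ⟨e⟩⟩ | h | ⟨n, hn, ⟨e⟩⟩
  · rcases hn.eq_or_lt with rfl | hn
    · obtain ⟨e'⟩ := IsKleinFour.nonempty_mulEquiv (G₁ := DihedralGroup 2)
        (G₂ := Multiplicative (ZMod 2 × ZMod 2))
      exact exists_not_sChain_homo hS one_pos (e.trans (e'.trans (MulEquiv.prodMultiplicative _ _)))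
    · obtain ⟨k, x, y, -, h⟩ := exists_mc_of_dihedral hS hn e
      obtain ⟨K, _, _, φ, ζ, hK⟩ := exists_tw k
      obtain ⟨u, hu, e⟩ := hK.card_sq
      obtain ⟨F, hF, hi⟩ := exists_act_of_model (model_PSL2 hK.odd hu e) h
      exact ⟨F, hF, h.not_sChain hi⟩
  · obtain ⟨k, x, y, h⟩ := exists_mc_of_isQuasiDihedral h
    obtain ⟨L, _, _, hL, u, hu, e⟩ := exists_field_plus k
    obtain ⟨F, hF, hi⟩ := exists_act_of_model (model_SL3 hL hu e) h
    exact ⟨F, hF, h.not_sChain hi⟩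
  · obtain ⟨k, x, y, -, h⟩ := exists_mc_of_quaternion hS hn e
    rcases k with _ | k
    · haveI : Fact (Nat.Prime 3) := ⟨Nat.prime_three⟩
      obtain ⟨F, hF, hi⟩ := exists_act_of_model (model_SL2 (F := ZMod 3) (by rw [ZMod.card])
        odd_one (by rw [ZMod.card]; norm_num)) h
      exact ⟨F, hF, h.not_sChain_q hi⟩
    · obtain ⟨K, _, _, φ, ζ, hK⟩ := exists_tw k
      obtain ⟨u, hu, e⟩ := hK.card_sq
      obtain ⟨F, hF, hi⟩ := exists_act_of_model (model_SL2 hK.odd hu e) h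
      exact ⟨F, hF, h.not_sChain_q hi⟩

end counter

end Cfsg.Agent.H6
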